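import Cfsg.Prelude.Def_LieTypeDatum
import Mathlib

set_option autoImplicit false

/-! Semisimilarity pairs `(g, σ)` of a form as a subgroup of `GL ⋊ Aut F`, and the induced
automorphisms of `PΩ`. Part 1: abstract functors. -/

namespace Cfsg.Agent.Lib.Helper49

section functors

variable {G : Type*} [Group G]

/-- restriction of automorphisms to a characteristic subgroup -/
def charRestrict (H : Subgroup G) [hH : H.Characteristic] : MulAut G →* MulAut ↥H where
  toFun α :=
    { toFun := fun h => ⟨α h.1, by
        have := hH.fixed α
        have h2 : h.1 ∈ H.comap α.toMonoidHom := by rw [this]; exact h.2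
        exact h2⟩
      invFun := fun h => ⟨α.symm h.1, by
        have := hH.fixed α.symm
        have h2 : h.1 ∈ H.comap α.symm.toMonoidHom := by rw [this]; exact h.2
        exact h2⟩
      left_inv := fun h => Subtype.ext (by simp)
      right_inv := fun h => Subtype.ext (by simp)
      map_mul' := fun a b => Subtype.ext (by simp) }
  map_one' := by ext; rfl
  map_mul' a b := by ext; rfl

@[simp] theorem charRestrict_apply_coe (H : Subgroup G) [H.Characteristic] (α : MulAut G) (h : ↥H) :
    ((charRestrict H α h : ↥H) : G) = α h.1 := rfl

/-- automorphisms induced on the quotient by a characteristic subgroup -/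
def charQuot (N : Subgroup G) [hN : N.Characteristic] [N.Normal] : MulAut G →* MulAut (G ⧸ N) where
  toFun α := QuotientGroup.congr N N α (Subgroup.characteristic_iff_map_eq.1 hN α)
  map_one' := by
    ext x
    induction x using QuotientGroup.induction_on with
    | H x => rfl
  map_mul' a b := by
    ext x
    induction x using QuotientGroup.induction_on with
    | H x => rfl

@[simp] theorem charQuot_apply_mk (N : Subgroup G) [N.Characteristic] [N.Normal] (α : MulAut G)
    (x : G) : charQuot N α (QuotientGroup.mk x : G ⧸ N) = QuotientGroup.mk (α x) := rfl

/-- automorphisms of `G` act on `G' / Z(G')` -/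
def autPComm : MulAut G →* MulAut (↥(commutator G) ⧸ Subgroup.center ↥(commutator G)) :=
  (charQuot (Subgroup.center ↥(commutator G))).comp (charRestrict (commutator G))

theorem autPComm_apply_mk (α : MulAut G) (x : ↥(commutator G)) :
    autPComm α (QuotientGroup.mk x) = QuotientGroup.mk (charRestrict (commutator G) α x) := rfl

end functors

end Cfsg.Agent.Lib.Helper49
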