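import Cfsg.Agent.Lib.Helper49.GamO2
import Cfsg.Agent.Lib.Helper49.Gram

set_option autoImplicit false
set_option linter.unusedSimpArgs false
set_option linter.unusedSectionVars false

/-! The Gram matrix identity for semisimilarities, and determinants of powers. -/

namespace Cfsg.Agent.Lib.Helper49

open QuadraticMap Module Matrix
open scoped MatrixGroups

variable {ι : Type} [Fintype ι] [DecidableEq ι] {F : Type*} [Field F]
variable (Q : QuadraticForm F (ι → F))

/-- the Gram matrix of the polar form in the standard basis -/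
def gramM : Matrix ι ι F := Matrix.of (fun i j => polar ⇑Q (Pi.single i 1) (Pi.single j 1))

theorem gramM_eq : gramM Q = LinearMap.BilinForm.toMatrix' (polarBilin Q) := by
  ext i j
  rw [LinearMap.BilinForm.toMatrix'_apply]
  rfl

theorem polar_semiFun (x : GamL ι F) (c : F) (h : ∀ v, Q (semiFun x v) = c * x.right (Q v))
    (u v : ι → F) : polar ⇑Q (semiFun x u) (semiFun x v) = c * x.right (polar ⇑Q u v) := by
  unfold polar
  rw [← semiFun_add, h, h, h]
  simp only [map_sub, mul_sub]

theorem semiFun_single (x : GamL ι F) (i : ι) :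
    semiFun x (Pi.single i 1) = (x.left : Matrix ι ι F) *ᵥ Pi.single i 1 := by
  unfold semiFun
  congr 1
  funext j
  by_cases h : j = i
  · subst h; simp
  · simp [Pi.single_eq_of_ne h]

theorem gram_semi (x : GamL ι F) (c : F) (h : ∀ v, Q (semiFun x v) = c * x.right (Q v)) :
    (x.left : Matrix ι ι F)ᵀ * gramM Q * (x.left : Matrix ι ι F) =
      c • (gramM Q).map x.right := by
  rw [gramM_eq, LinearMap.BilinForm.mul_toMatrix'_mul, Matrix.transpose_transpose]
  ext i j
  rw [LinearMap.BilinForm.toMatrix'_apply, LinearMap.BilinForm.comp_apply, Matrix.toLin'_apply,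
    Matrix.toLin'_apply, ← semiFun_single, ← semiFun_single, polarBilin_apply_apply,
    polar_semiFun Q x c h, Matrix.smul_apply, Matrix.map_apply,
    LinearMap.BilinForm.toMatrix'_apply, polarBilin_apply_apply, smul_eq_mul]

theorem det_sq_mul (x : GamL ι F) (c : F) (h : ∀ v, Q (semiFun x v) = c * x.right (Q v)) :
    (x.left : Matrix ι ι F).det ^ 2 * (gramM Q).det =
      c ^ Fintype.card ι * x.right (gramM Q).det := by
  have h1 := congrArg Matrix.det (gram_semi Q x c h)
  rw [Matrix.det_mul, Matrix.det_mul, Matrix.det_transpose, Matrix.det_smul] at h1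
  have h2 : ((gramM Q).map x.right).det = x.right (gramM Q).det :=
    (RingEquiv.map_det x.right (gramM Q)).symm
  rw [h2] at h1
  rw [← h1]
  ring

/-- determinant of the linear part of a product -/
theorem det_mul_left (x y : GamL ι F) :
    ((x * y).left : Matrix ι ι F).det =
      (x.left : Matrix ι ι F).det * x.right (y.left : Matrix ι ι F).det := by
  rw [SemidirectProduct.mul_left, Units.val_mul, Matrix.det_mul, coe_glMap]
  congr 1
  exact (RingEquiv.map_det x.right _).symm

/-- if `σ = Frobenius` and `det g = Δ^((p-1)/2)` then the determinant of the `j`-th power is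
`Δ^((p^j-1)/2)` -/
theorem det_pow_left (x : GamL ι F) {p : ℕ} (hp : p % 2 = 1) (hx : ∀ t, x.right t = t ^ p) (Δ : F)
    (hdet : (x.left : Matrix ι ι F).det = Δ ^ (p / 2)) (j : ℕ) :
    ((x ^ j).left : Matrix ι ι F).det = Δ ^ (p ^ j / 2) := by
  induction j with
  | zero => simp
  | succ j ih =>
    rw [pow_succ', det_mul_left, ih, hx, hdet, ← pow_mul, ← pow_add]
    congr 1
    have h1 : p ^ j % 2 = 1 := by rw [Nat.pow_mod, hp]; simp
    obtain ⟨a, ha⟩ : ∃ a, p = 2 * a + 1 := ⟨p / 2, by omega⟩
    obtain ⟨b, hb⟩ : ∃ b, p ^ j = 2 * b + 1 := ⟨p ^ j / 2, by omega⟩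
    rw [pow_succ, hb]
    have e1 : (2 * b + 1) / 2 = b := by omega
    rw [e1]
    subst ha
    have e2 : (2 * a + 1) / 2 = a := by omega
    rw [e2]
    have e3 : (2 * b + 1) * (2 * a + 1) = 2 * (a + b * (2 * a + 1)) + 1 := by ring
    rw [e3]
    omega

end Cfsg.Agent.Lib.Helper49
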