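import Cfsg.Agent.Lib.Helper49.GamO1

set_option autoImplicit false

/-! Semisimilarity pairs `(g, σ)` of a form as a subgroup of `GL ⋊ Aut F`, and the induced
automorphisms of `PΩ`. Part 2: the group and its action. -/

namespace Cfsg.Agent.Lib.Helper49

open Matrix
open scoped MatrixGroups

variable {ι : Type} [Fintype ι] [DecidableEq ι] {F : Type*} [Field F]

/-- entrywise application of a field automorphism, as an automorphism of `GL` -/
def glMapEquiv (σ : F ≃+* F) : GL ι F ≃* GL ι F where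
  toFun := GeneralLinearGroup.map (σ : F →+* F)
  invFun := GeneralLinearGroup.map (σ.symm : F →+* F)
  left_inv g := by
    apply Units.ext; ext i j
    simp [GeneralLinearGroup.map_apply]
  right_inv g := by
    apply Units.ext; ext i j
    simp [GeneralLinearGroup.map_apply]
  map_mul' := map_mul _

theorem glMapEquiv_apply (σ : F ≃+* F) (g : GL ι F) (i j : ι) : glMapEquiv σ g i j = σ (g i j) :=
  GeneralLinearGroup.map_apply _ _ _ _

theorem coe_glMapEquiv (σ : F ≃+* F) (g : GL ι F) :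
    ((glMapEquiv σ g : GL ι F) : Matrix ι ι F) = (g : Matrix ι ι F).map σ := by
  ext i j
  exact glMapEquiv_apply σ g i j

/-- the action of `Aut F` on `GL` -/
def glMap : (F ≃+* F) →* MulAut (GL ι F) where
  toFun := glMapEquiv
  map_one' := by
    ext g i j
    rw [glMapEquiv_apply]; rfl
  map_mul' a b := by
    ext g i j
    rw [glMapEquiv_apply, MulAut.mul_apply, glMapEquiv_apply, glMapEquiv_apply]; rfl

theorem glMap_apply (σ : F ≃+* F) (g : GL ι F) (i j : ι) : glMap σ g i j = σ (g i j) :=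
  glMapEquiv_apply σ g i j

theorem coe_glMap (σ : F ≃+* F) (g : GL ι F) :
    ((glMap σ g : GL ι F) : Matrix ι ι F) = (g : Matrix ι ι F).map σ := coe_glMapEquiv σ g

variable (ι F) in
/-- the group of all pairs `(g, σ)`, i.e. `ΓL` -/
abbrev GamL : Type _ := GL ι F ⋊[(glMap : (F ≃+* F) →* MulAut (GL ι F))] (F ≃+* F)

/-- the semilinear map `v ↦ g σ(v)` -/
def semiFun (x : GamL ι F) (v : ι → F) : ι → F :=
  (x.left : Matrix ι ι F) *ᵥ (fun i => x.right (v i))

theorem map_mulVec' (σ : F ≃+* F) (A : Matrix ι ι F) (v : ι → F) :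
    (fun i => σ ((A *ᵥ v) i)) = (A.map σ) *ᵥ (fun i => σ (v i)) := by
  funext i
  simp only [mulVec, dotProduct, map_sum, map_mul, Matrix.map_apply]

theorem semiFun_mul (x y : GamL ι F) (v : ι → F) : semiFun (x * y) v = semiFun x (semiFun y v) := by
  unfold semiFun
  rw [map_mulVec', SemidirectProduct.mul_left, SemidirectProduct.mul_right, Units.val_mul,
    coe_glMap, Matrix.mulVec_mulVec]
  rfl

theorem semiFun_one (v : ι → F) : semiFun (1 : GamL ι F) v = v := by
  unfold semiFun
  simp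

theorem semiFun_inv_semiFun (x : GamL ι F) (v : ι → F) : semiFun x⁻¹ (semiFun x v) = v := by
  rw [← semiFun_mul, inv_mul_cancel, semiFun_one]

theorem semiFun_semiFun_inv (x : GamL ι F) (v : ι → F) : semiFun x (semiFun x⁻¹ v) = v := by
  rw [← semiFun_mul, mul_inv_cancel, semiFun_one]

theorem semiFun_add (x : GamL ι F) (u v : ι → F) : semiFun x (u + v) = semiFun x u + semiFun x v := by
  unfold semiFun
  rw [← Matrix.mulVec_add]
  congr 1
  funext i
  simp

theorem semiFun_smul (x : GamL ι F) (a : F) (v : ι → F) :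
    semiFun x (a • v) = x.right a • semiFun x v := by
  unfold semiFun
  rw [← Matrix.mulVec_smul]
  congr 1
  funext i
  simp

theorem semiFun_inl (g : GL ι F) (v : ι → F) :
    semiFun (SemidirectProduct.inl g : GamL ι F) v = (g : Matrix ι ι F) *ᵥ v := by
  unfold semiFun
  simp

/-- the action of `ΓL` on `GL`: `s ↦ g σ(s) g⁻¹` -/
def actGL : GamL ι F →* MulAut (GL ι F) :=
  SemidirectProduct.lift MulAut.conj glMap (by
    intro σ
    ext g : 1
    ext h : 1
    simp [MulAut.conj_apply])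

theorem actGL_apply (x : GamL ι F) (s : GL ι F) :
    actGL x s = x.left * glMap x.right s * x.left⁻¹ := by
  simp [actGL, SemidirectProduct.lift, MulAut.conj_apply]

theorem actGL_mulVec (x : GamL ι F) (s : GL ι F) (v : ι → F) :
    ((actGL x s : GL ι F) : Matrix ι ι F) *ᵥ (semiFun x v) = semiFun x ((s : Matrix ι ι F) *ᵥ v) := by
  rw [actGL_apply]
  unfold semiFun
  rw [map_mulVec', Matrix.mulVec_mulVec, Matrix.mulVec_mulVec, Units.val_mul, Units.val_mul,
    coe_glMap, Matrix.mul_assoc, ← Units.val_mul, inv_mul_cancel]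
  simp

variable (Q : (ι → F) → F)

/-- the group `ΓO(Q)` of semisimilarity pairs -/
def GamO : Subgroup (GamL ι F) where
  carrier := {x | Cfsg.IsSemisimilarityPair Q x.left x.right}
  mul_mem' := by
    rintro x y ⟨c, hc⟩ ⟨d, hd⟩
    refine ⟨c * Units.map (x.right : F →* F) d, fun v => ?_⟩
    have h1 := semiFun_mul x y v
    unfold semiFun at h1
    rw [h1, hc, hd]
    simp [mul_assoc]
  one_mem' := ⟨1, fun v => by simp⟩
  inv_mem' := by
    rintro x ⟨c, hc⟩
    refine ⟨Units.map (x.right⁻¹ : F ≃+* F).toRingHom.toMonoidHom c⁻¹, fun v => ?_⟩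
    have h1 := hc (semiFun x⁻¹ v)
    have h2 := semiFun_semiFun_inv x v
    unfold semiFun at h1 h2
    rw [h2] at h1
    rw [h1]
    simp only [SemidirectProduct.inv_right, Units.coe_map, MonoidHom.coe_coe, RingHom.toMonoidHom_eq_coe,
      RingEquiv.toRingHom_eq_coe, RingHom.coe_coe, map_mul]
    have h3 : ∀ a : F, (x.right⁻¹ : F ≃+* F) (x.right a) = a := fun a => by
      change (x.right⁻¹ * x.right) a = a
      rw [inv_mul_cancel]; rfl
    rw [h3, ← mul_assoc, ← map_mul]
    simp

theorem mem_GamO {x : GamL ι F} : x ∈ GamO Q ↔ ∃ c : Fˣ, ∀ v, Q (semiFun x v) = c * x.right (Q v) :=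
  Iff.rfl

theorem actGL_mem {x : GamL ι F} (hx : x ∈ GamO Q) {s : GL ι F} (hs : s ∈ Cfsg.isometryGroup F Q) :
    actGL x s ∈ Cfsg.isometryGroup F Q := by
  obtain ⟨c, hc⟩ := (mem_GamO Q).1 hx
  intro u _
  change Q (((actGL x s : GL ι F) : Matrix ι ι F) *ᵥ u) = Q u
  have hs' : ∀ v, Q ((s : Matrix ι ι F) *ᵥ v) = Q v := fun v => hs v v
  rw [← semiFun_semiFun_inv x u, actGL_mulVec, hc, hc, hs']

/-- the action of `ΓO(Q)` on `O(Q)` -/
def actO : ↥(GamO Q) →* MulAut ↥(Cfsg.isometryGroup F Q) where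
  toFun x :=
    { toFun := fun s => ⟨actGL x.1 s.1, actGL_mem Q x.2 s.2⟩
      invFun := fun s => ⟨actGL x.1⁻¹ s.1, actGL_mem Q (inv_mem x.2) s.2⟩
      left_inv := fun s => Subtype.ext (by simp)
      right_inv := fun s => Subtype.ext (by simp)
      map_mul' := fun a b => Subtype.ext (by simp) }
  map_one' := by ext s : 2; simp
  map_mul' a b := by ext s : 2; simp

theorem actO_apply_coe (x : ↥(GamO Q)) (s : ↥(Cfsg.isometryGroup F Q)) :
    ((actO Q x s : ↥(Cfsg.isometryGroup F Q)) : GL ι F) = actGL x.1 s.1 := rfl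

/-- the automorphism of `PΩ(Q)` induced by a semisimilarity pair -/
def cGam : ↥(GamO Q) →* MulAut (Cfsg.POmega F Q) := autPComm.comp (actO Q)

theorem cGam_mk (x : ↥(GamO Q)) (s : ↥(Cfsg.Omega F Q)) :
    cGam Q x (QuotientGroup.mk s) =
      QuotientGroup.mk (charRestrict (commutator ↥(Cfsg.isometryGroup F Q)) (actO Q x) s) := rfl

theorem cGam_induced (x : ↥(GamO Q)) :
    Cfsg.IsInducedBySemilinearPOmega Q x.1.left x.1.right (cGam Q x) := by
  intro s s' h
  rw [cGam_mk]
  congr 1
  apply Subtype.ext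
  apply Subtype.ext
  apply Units.ext
  rw [h, charRestrict_apply_coe, actO_apply_coe, actGL_apply, Units.val_mul, Units.val_mul, coe_glMap]

theorem eq_cGam_of_induced (x : ↥(GamO Q)) (β : Cfsg.POmega F Q ≃* Cfsg.POmega F Q)
    (h : Cfsg.IsInducedBySemilinearPOmega Q x.1.left x.1.right β) : β = cGam Q x := by
  ext t
  induction t using QuotientGroup.induction_on with
  | H s =>
    rw [cGam_mk]
    apply h
    rw [charRestrict_apply_coe, actO_apply_coe, actGL_apply, Units.val_mul, Units.val_mul, coe_glMap]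

theorem gammaPOmega_eq_range : Cfsg.gammaPOmega F Q = (cGam Q).range := by
  unfold Cfsg.gammaPOmega Cfsg.autSubgroupOf
  apply le_antisymm
  · rw [Subgroup.closure_le]
    rintro β ⟨g, σ, h1, h2⟩
    exact ⟨⟨⟨g, σ⟩, h1⟩, (eq_cGam_of_induced Q ⟨⟨g, σ⟩, h1⟩ β h2).symm⟩
  · rintro _ ⟨x, rfl⟩
    exact Subgroup.subset_closure ⟨x.1.left, x.1.right, x.2, cGam_induced Q x⟩

end Cfsg.Agent.Lib.Helper49
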