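import Mathlib
import Cfsg.Agent.Lib.Helper49.OmegaCrit
import Cfsg.Agent.S0756

set_option autoImplicit false

namespace Cfsg.Agent.Lib.Helper49

open Matrix QuadraticMap Module

section Stab

variable {F V : Type*} [Field F] [AddCommGroup V] [Module F V] (Q : QuadraticForm F V)

/-- stabiliser of a subspace in the orthogonal group -/
def stabSub (U : Submodule F V) : Subgroup (OG Q) where
  carrier := {g | U.map (g.1 : V →ₗ[F] V) = U}
  one_mem' := by
    change U.map ((1 : V ≃ₗ[F] V) : V →ₗ[F] V) = U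
    exact Submodule.map_id U
  mul_mem' {a b} ha hb := by
    change U.map (((a.1 * b.1 : V ≃ₗ[F] V)) : V →ₗ[F] V) = U
    have : (((a.1 * b.1 : V ≃ₗ[F] V)) : V →ₗ[F] V) = (a.1 : V →ₗ[F] V).comp (b.1 : V →ₗ[F] V) := rfl
    rw [this, Submodule.map_comp, hb, ha]
  inv_mem' {a} ha := by
    change U.map (((a.1⁻¹ : V ≃ₗ[F] V)) : V →ₗ[F] V) = U
    conv_lhs => rw [← ha]
    rw [← Submodule.map_comp]
    have : (((a.1⁻¹ : V ≃ₗ[F] V)) : V →ₗ[F] V).comp (a.1 : V →ₗ[F] V) = LinearMap.id := by
      ext x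
      change a.1⁻¹ (a.1 x) = x
      rw [← LinearEquiv.mul_apply, inv_mul_cancel]
      rfl
    rw [this, Submodule.map_id]

theorem mem_stabSub {U : Submodule F V} {g : OG Q} :
    g ∈ stabSub Q U ↔ U.map (g.1 : V →ₗ[F] V) = U := Iff.rfl

theorem mem_stabSub_of_forall [FiniteDimensional F V] {U : Submodule F V} {g : OG Q}
    (h : ∀ x ∈ U, g.1 x ∈ U) : g ∈ stabSub Q U := by
  rw [mem_stabSub]
  apply Submodule.eq_of_le_of_finrank_eq
  · rintro _ ⟨x, hx, rfl⟩
    exact h x hx
  · exact LinearEquiv.finrank_map_eq g.1 U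

theorem refl_mem_stabSub_of_mem [FiniteDimensional F V] {U : Submodule F V} {y : V} (hy : y ∈ U) :
    refl Q y ∈ stabSub Q U := by
  apply mem_stabSub_of_forall
  intro x hx
  rw [refl_coe_apply, reflLin_apply]
  exact U.sub_mem hx (U.smul_mem _ hy)

theorem refl_mem_stabSub_of_ortho [FiniteDimensional F V] {U : Submodule F V} {y : V}
    (hy : ∀ x ∈ U, polar Q y x = 0) : refl Q y ∈ stabSub Q U := by
  apply mem_stabSub_of_forall
  intro x hx
  rw [refl_coe_apply, reflLin_of_polar_eq_zero Q _ _ (hy x hx)]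
  exact hx

end Stab

section Adj

variable {F V : Type*} [Field F] [Fintype F] [AddCommGroup V] [Module F V] [FiniteDimensional F V]
  (Q : QuadraticForm F V)

/-- a subgroup containing an odd product of reflections and an even one of nonsquare spinor norm
covers the quotient by the commutator subgroup -/
theorem exists_mul_mem_commutator (hQ : (polarBilin Q).Nondegenerate)
    (h : Fintype.card F ≠ 2 ∨ finrank F V ≠ 4) (H : Subgroup (OG Q)) (ys₁ ys₂ : List V)
    (h1 : ∀ y ∈ ys₁, Q y ≠ 0) (h1' : reflProd Q ys₁ ∈ H) (h1o : ¬ Even ys₁.length)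
    (h2 : ∀ y ∈ ys₂, Q y ≠ 0) (h2' : reflProd Q ys₂ ∈ H) (h2e : Even ys₂.length)
    (h2s : (2 : F) = 0 ∨ ¬ IsSquare (ys₂.map Q).prod) (g : OG Q) :
    ∃ k ∈ H, g * k ∈ commutator (OG Q) := by
  obtain ⟨vs, hvs, rfl⟩ := exists_reflProd_eq_finite Q hQ h g
  obtain ⟨ws, hws, hwsH, hwe⟩ : ∃ ws : List V, (∀ y ∈ ws, Q y ≠ 0) ∧ reflProd Q ws ∈ H ∧
      Even (vs.length + ws.length) := by
    by_cases he : Even vs.length
    · exact ⟨[], by simp, by simp, by simpa using he⟩
    · refine ⟨ys₁, h1, h1', ?_⟩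
      rw [Nat.even_add]
      tauto
  have hvw : ∀ y ∈ vs ++ ws, Q y ≠ 0 := by
    intro y hy
    rcases List.mem_append.1 hy with h | h
    · exact hvs y h
    · exact hws y h
  by_cases hs : IsSquare ((vs ++ ws).map Q).prod
  · refine ⟨reflProd Q ws, hwsH, ?_⟩
    rw [← reflProd_append]
    exact reflProd_mem_commutator_of_even_of_isSquare Q hQ _ hvw
      (by rw [List.length_append]; exact hwe) hs
  · have h20 : (2 : F) ≠ 0 := fun h20 => hs (isSquare_of_two_eq_zero h20 _)
    have h2s' : ¬ IsSquare (ys₂.map Q).prod := by tauto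
    refine ⟨reflProd Q ws * reflProd Q ys₂, H.mul_mem hwsH h2', ?_⟩
    rw [← mul_assoc, ← reflProd_append, ← reflProd_append]
    apply reflProd_mem_commutator_of_even_of_isSquare Q hQ
    · intro y hy
      rcases List.mem_append.1 hy with h | h
      · exact hvw y h
      · exact h2 y h
    · rw [List.length_append, List.length_append]
      exact hwe.add h2e
    · rw [List.map_append, List.prod_append]
      exact isSquare_mul_of_not_isSquare h20 hs h2s'

end Adj

section Univ

variable {F V : Type*} [Field F] [Fintype F] [AddCommGroup V] [Module F V] [FiniteDimensional F V]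
  (Q : QuadraticForm F V)

omit [Fintype F] [FiniteDimensional F V] in
theorem resQ_nondegenerate_of_inf_eq_bot (X : Submodule F V)
    (hX : X ⊓ LinearMap.BilinForm.orthogonal (polarBilin Q) X = ⊥) :
    (polarBilin (resQ Q X)).Nondegenerate := by
  apply nondegenerate_of_separatingLeft
  intro x hx
  have : (x : V) ∈ X ⊓ LinearMap.BilinForm.orthogonal (polarBilin Q) X := by
    refine ⟨x.2, fun y hy => ?_⟩
    have := hx ⟨y, hy⟩
    rw [polar_resQ, polar_comm] at this
    exact this
  rw [hX, Submodule.mem_bot] at this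
  exact Subtype.ext this

/-- a form of dimension at least two with nondegenerate polar form represents both square classes -/
theorem exists_two_classes (hQ : (polarBilin Q).Nondegenerate) (hd : 2 ≤ finrank F V) :
    ∃ y₁ y₂ : V, Q y₁ ≠ 0 ∧ Q y₂ ≠ 0 ∧ ((2 : F) = 0 ∨ ¬ IsSquare (Q y₁ * Q y₂)) := by
  by_cases h2 : (2 : F) = 0
  · have : Nontrivial V := Module.nontrivial_of_finrank_pos (R := F) (by omega)
    obtain ⟨x, hx⟩ := exists_ne (0 : V)
    obtain ⟨a, -, ha, -⟩ := exists_nonsingular_pair Q h2 hQ hx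
    exact ⟨a, a, ha, ha, Or.inl h2⟩
  · obtain ⟨α, hα⟩ := FiniteField.exists_nonsquare (ringChar_ne_two_of_two_ne_zero h2)
    have hα0 : α ≠ 0 := by rintro rfl; exact hα ⟨0, by simp⟩
    obtain ⟨n, hn⟩ : ∃ n, finrank F V = (n + 1) + 1 := ⟨finrank F V - 2, by omega⟩
    obtain ⟨b, -, hb, -⟩ := Cfsg.Agent.S0756.result h2 (polarBilin Q)
      (LinearMap.BilinForm.isSymm_iff.2 (polarBilin_isSymm Q)) hQ hn α hα
    have hQ' : (polarBilin (α • Q)).Nondegenerate := by
      apply nondegenerate_of_separatingLeft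
      intro x hx
      apply hQ.1
      intro y
      have := hx y
      rw [FunLike.coe_smul, polar_smul, smul_eq_mul] at this
      rcases mul_eq_zero.1 this with h | h
      · exact absurd h hα0
      · exact h
    obtain ⟨b', -, hb', -⟩ := Cfsg.Agent.S0756.result h2 (polarBilin (α • Q))
      (LinearMap.BilinForm.isSymm_iff.2 (polarBilin_isSymm (α • Q))) hQ' hn α hα
    have h0 : (0 : Fin (n + 1 + 1)) ≠ Fin.last (n + 1) := by
      intro h
      have := congrArg Fin.val h
      simp at this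
    have e1 := hb 0 h0
    have e2 := hb' 0 h0
    rw [polarBilin_apply_apply, polar_self, nsmul_eq_mul] at e1 e2
    rw [_root_.smul_apply, smul_eq_mul] at e2
    push_cast at e1 e2
    refine ⟨b 0, b' 0, ?_, ?_, Or.inr ?_⟩
    · intro h; rw [h] at e1; simp at e1
    · intro h; rw [h] at e2; simp at e2
    · rintro ⟨r, hr⟩
      apply hα
      have hr0 : r ≠ 0 := by
        rintro rfl
        have : (2 * Q (b 0)) * (2 * (α * Q (b' 0))) = 0 := by
          have : Q (b 0) * Q (b' 0) = 0 := by rw [hr]; ring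
          linear_combination 4 * α * this
        rw [e1, e2] at this
        simp at this
      refine ⟨(2 * r)⁻¹, ?_⟩
      have h4 : (2 * Q (b 0)) * (2 * (α * Q (b' 0))) = 1 := by rw [e1, e2]; ring
      have h5 : 4 * α * (r * r) = 1 := by rw [← hr]; linear_combination h4
      field_simp
      linear_combination h5

theorem exists_two_classes_sub (X : Submodule F V)
    (hX : X ⊓ LinearMap.BilinForm.orthogonal (polarBilin Q) X = ⊥) (hd : 2 ≤ finrank F X) :
    ∃ y₁ ∈ X, ∃ y₂ ∈ X, Q y₁ ≠ 0 ∧ Q y₂ ≠ 0 ∧ ((2 : F) = 0 ∨ ¬ IsSquare (Q y₁ * Q y₂)) := by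
  obtain ⟨y₁, y₂, h1, h2, h3⟩ := exists_two_classes (resQ Q X)
    (resQ_nondegenerate_of_inf_eq_bot Q X hX) hd
  exact ⟨y₁, y₁.2, y₂, y₂.2, h1, h2, h3⟩

end Univ

end Cfsg.Agent.Lib.Helper49
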