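import Mathlib
import Cfsg.Agent.Lib.Helper49.OmegaTrans
import Cfsg.Agent.Lib.Helper50.QuadClass

set_option autoImplicit false

namespace Cfsg.Agent.Lib.Helper49

open QuadraticMap Module

section

variable {F V : Type*} [Field F] [AddCommGroup V] [Module F V] (Q : QuadraticForm F V)

/-- a functional cuts the dimension of a subspace by at most one -/
theorem finrank_le_inf_ker_add_one [FiniteDimensional F V] (S : Submodule F V) (φ : V →ₗ[F] F) :
    finrank F S ≤ finrank F ↥(S ⊓ LinearMap.ker φ) + 1 := by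
  by_cases h : ∃ y ∈ S, φ y ≠ 0
  · exact (finrank_inf_ker_add_one S φ h).ge
  · push Not at h
    have : S ⊓ LinearMap.ker φ = S := by
      apply inf_eq_left.2
      intro y hy
      exact h y hy
    rw [this]
    omega

/-- from a singular vector `e` and a vector `f₀` not orthogonal to it: a hyperbolic pair -/
theorem exists_hyp_partner (T : Submodule F V) {e f₀ : V} (he : e ∈ T) (hf₀ : f₀ ∈ T) (hQe : Q e = 0)
    (h : polar Q e f₀ ≠ 0) : ∃ f ∈ T, Q f = 0 ∧ polar Q e f = 1 := by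
  obtain ⟨f₁, hf₁, h1⟩ : ∃ f₁ ∈ T, polar Q e f₁ = 1 :=
    ⟨(polar Q e f₀)⁻¹ • f₀, T.smul_mem _ hf₀, by
      rw [polar_smul_right, smul_eq_mul, inv_mul_cancel₀ h]⟩
  refine ⟨f₁ - Q f₁ • e, T.sub_mem hf₁ (T.smul_mem _ he), ?_, ?_⟩
  · rw [Q_sub_smul, hQe, h1]; ring
  · rw [polar_sub_right, polar_smul_right, polar_self, hQe, h1]; simp

end

section

variable {F V : Type*} [Field F] [Fintype F] [AddCommGroup V] [Module F V] [FiniteDimensional F V]
  (Q : QuadraticForm F V)

/-- a subspace of large dimension of a nondegenerate quadratic space over a finite field contains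
a hyperbolic pair -/
theorem exists_hyp_pair_mem (hQ : (polarBilin Q).Nondegenerate) (T : Submodule F V)
    (hT : finrank F V + 3 ≤ 2 * finrank F T) :
    ∃ e ∈ T, ∃ f ∈ T, Q e = 0 ∧ Q f = 0 ∧ polar Q e f = 1 := by
  have h1 := LinearMap.BilinForm.finrank_orthogonal hQ T
  set O := LinearMap.BilinForm.orthogonal (polarBilin Q) T with hO
  obtain ⟨T', hT'⟩ := Submodule.exists_isCompl (T ⊓ O)
  have h2 := Submodule.finrank_add_eq_of_isCompl hT'
  have h3 := Submodule.finrank_sup_add_finrank_inf_eq T' T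
  have h4 : finrank F ↥(T ⊓ O) ≤ finrank F O := Submodule.finrank_mono inf_le_right
  have h5 := Submodule.finrank_le (T' ⊔ T)
  have h6 := Submodule.finrank_le T
  have h7 : 3 ≤ finrank F ↥(T' ⊓ T) := by omega
  have hq : 1 < Fintype.card F := Fintype.one_lt_card
  have hc : Fintype.card F ^ 2 < Nat.card ↥(T' ⊓ T) := by
    rw [Module.natCard_eq_pow_finrank (K := F), Nat.card_eq_fintype_card]
    exact Nat.pow_lt_pow_right hq (by omega)
  obtain ⟨e, he, he0, hQe⟩ := Cfsg.Agent.Lib.Helper50.Quad.exists_singular (Q := Q) (T' ⊓ T) hc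
  have heT : e ∈ T := he.2
  have heO : e ∉ O := by
    intro h
    apply he0
    have : e ∈ (T ⊓ O) ⊓ T' := ⟨⟨heT, h⟩, he.1⟩
    rw [hT'.inf_eq_bot] at this
    simpa using this
  have : ∃ f₀ ∈ T, polar Q e f₀ ≠ 0 := by
    by_contra hcon
    push Not at hcon
    apply heO
    intro n hn
    change polar Q n e = 0
    rw [polar_comm]
    exact hcon n hn
  obtain ⟨f₀, hf₀, hne⟩ := this
  obtain ⟨f, hf, hQf, hef⟩ := exists_hyp_partner Q T heT hf₀ hQe hne
  exact ⟨e, heT, f, hf, hQe, hQf, hef⟩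

/-- a hyperbolic pair orthogonal to three given vectors -/
theorem exists_hyp_pair_ortho3 (hQ : (polarBilin Q).Nondegenerate) (hd : 9 ≤ finrank F V)
    (x y z : V) : ∃ e f, Q e = 0 ∧ Q f = 0 ∧ polar Q e f = 1 ∧ polar Q x e = 0 ∧ polar Q x f = 0 ∧
      polar Q y e = 0 ∧ polar Q y f = 0 ∧ polar Q z e = 0 ∧ polar Q z f = 0 := by
  have h1 := finrank_le_inf_ker_add_one (⊤ : Submodule F V) (polarBilin Q x)
  have h2 := finrank_le_inf_ker_add_one (⊤ ⊓ LinearMap.ker (polarBilin Q x)) (polarBilin Q y)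
  have h3 := finrank_le_inf_ker_add_one
    (⊤ ⊓ LinearMap.ker (polarBilin Q x) ⊓ LinearMap.ker (polarBilin Q y)) (polarBilin Q z)
  rw [finrank_top] at h1
  obtain ⟨e, he, f, hf, h4, h5, h6⟩ := exists_hyp_pair_mem Q hQ
    (⊤ ⊓ LinearMap.ker (polarBilin Q x) ⊓ LinearMap.ker (polarBilin Q y) ⊓
      LinearMap.ker (polarBilin Q z)) (by omega)
  simp only [Submodule.mem_inf, Submodule.mem_top, true_and, LinearMap.mem_ker,
    polarBilin_apply_apply] at he hf
  exact ⟨e, f, h4, h5, h6, he.1.1, hf.1.1, he.1.2, hf.1.2, he.2, hf.2⟩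

/-- a hyperbolic pair inside a nondegenerate subspace, orthogonal to two given vectors -/
theorem exists_hyp_pair_sub (U : Submodule F V)
    (hU : U ⊓ LinearMap.BilinForm.orthogonal (polarBilin Q) U = ⊥) (hd : 7 ≤ finrank F U)
    (x y : V) : ∃ e ∈ U, ∃ f ∈ U, Q e = 0 ∧ Q f = 0 ∧ polar Q e f = 1 ∧ polar Q x e = 0 ∧
      polar Q x f = 0 ∧ polar Q y e = 0 ∧ polar Q y f = 0 := by
  have hQU := resQ_nondegenerate_of_inf_eq_bot Q U hU
  have h1 := finrank_le_inf_ker_add_one (⊤ : Submodule F U) ((polarBilin Q x).comp U.subtype)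
  have h2 := finrank_le_inf_ker_add_one (⊤ ⊓ LinearMap.ker ((polarBilin Q x).comp U.subtype))
    ((polarBilin Q y).comp U.subtype)
  rw [finrank_top] at h1
  obtain ⟨e, he, f, hf, h4, h5, h6⟩ := exists_hyp_pair_mem (resQ Q U) hQU
    (⊤ ⊓ LinearMap.ker ((polarBilin Q x).comp U.subtype) ⊓
      LinearMap.ker ((polarBilin Q y).comp U.subtype)) (by omega)
  simp only [Submodule.mem_inf, Submodule.mem_top, true_and, LinearMap.mem_ker,
    LinearMap.comp_apply, Submodule.subtype_apply, polarBilin_apply_apply] at he hf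
  refine ⟨e, e.2, f, f.2, h4, h5, ?_, he.1, hf.1, he.2, hf.2⟩
  rw [← polar_resQ]
  exact h6

omit [Fintype F] [FiniteDimensional F V] in
/-- correcting the norm of a vector with a hyperbolic pair -/
theorem fix_norm_of_hyp_pair {e f : V} (he : Q e = 0) (hf : Q f = 0) (hef : polar Q e f = 1)
    (u₀ : V) (c : F) : ∃ s t : F, Q (u₀ + s • e + t • f) = c ∧ polar Q (u₀ + s • e + t • f) f = 1 := by
  have hee : polar Q e e = 0 := by rw [polar_self, he]; simp
  have hff : polar Q f f = 0 := by rw [polar_self, hf]; simp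
  have hfe : polar Q f e = 1 := by rw [polar_comm]; exact hef
  -- `s = 1 - B(u₀, f)`
  refine ⟨1 - polar Q u₀ f, c - Q u₀ - (1 - polar Q u₀ f) * polar Q u₀ e, ?_, ?_⟩
  · rw [Q_add_eq, Q_add_eq, QuadraticMap.map_smul, QuadraticMap.map_smul, he, hf, polar_add_left,
      polar_smul_right, polar_smul_right, polar_smul_left, polar_smul_right, hef]
    simp only [smul_eq_mul]
    ring
  · rw [polar_add_left, polar_add_left, polar_smul_left, polar_smul_left, hef, hff]
    simp

/-- in a nondegenerate subspace of dimension at least `7`: prescribe the norm, keeping the inner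
products with two given vectors -/
theorem exists_fix_norm (U : Submodule F V)
    (hU : U ⊓ LinearMap.BilinForm.orthogonal (polarBilin Q) U = ⊥) (hd : 7 ≤ finrank F U)
    (x y : V) {u₀ : V} (hu₀ : u₀ ∈ U) (c : F) :
    ∃ u ∈ U, ∃ f ∈ U, Q u = c ∧ polar Q x u = polar Q x u₀ ∧ polar Q y u = polar Q y u₀ ∧
      polar Q x f = 0 ∧ polar Q y f = 0 ∧ polar Q u f = 1 := by
  obtain ⟨e, he, f, hf, h1, h2, h3, h4, h5, h6, h7⟩ := exists_hyp_pair_sub Q U hU hd x y
  obtain ⟨s, t, h8, h9⟩ := fix_norm_of_hyp_pair Q h1 h2 h3 u₀ c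
  refine ⟨u₀ + s • e + t • f, U.add_mem (U.add_mem hu₀ (U.smul_mem _ he)) (U.smul_mem _ hf), f, hf,
    h8, ?_, ?_, h5, h7, h9⟩
  · rw [polar_add_right, polar_add_right, polar_smul_right, polar_smul_right, h4, h5]; simp
  · rw [polar_add_right, polar_add_right, polar_smul_right, polar_smul_right, h6, h7]; simp

/-- whole space version with three constraints -/
theorem exists_fix_norm3 (hQ : (polarBilin Q).Nondegenerate) (hd : 9 ≤ finrank F V)
    (x y z u₀ : V) (c : F) :
    ∃ u f, Q u = c ∧ polar Q x u = polar Q x u₀ ∧ polar Q y u = polar Q y u₀ ∧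
      polar Q z u = polar Q z u₀ ∧ polar Q x f = 0 ∧ polar Q y f = 0 ∧ polar Q z f = 0 ∧
      polar Q u f = 1 := by
  obtain ⟨e, f, h1, h2, h3, h4, h5, h6, h7, h10, h11⟩ := exists_hyp_pair_ortho3 Q hQ hd x y z
  obtain ⟨s, t, h8, h9⟩ := fix_norm_of_hyp_pair Q h1 h2 h3 u₀ c
  refine ⟨u₀ + s • e + t • f, f, h8, ?_, ?_, ?_, h5, h7, h11, h9⟩
  · rw [polar_add_right, polar_add_right, polar_smul_right, polar_smul_right, h4, h5]; simp
  · rw [polar_add_right, polar_add_right, polar_smul_right, polar_smul_right, h6, h7]; simp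
  · rw [polar_add_right, polar_add_right, polar_smul_right, polar_smul_right, h10, h11]; simp

end

end Cfsg.Agent.Lib.Helper49
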