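import Mathlib
import Cfsg.Agent.Lib.Helper49.HypSub
import Cfsg.Agent.Lib.Helper49.WittUse

set_option autoImplicit false

namespace Cfsg.Agent.Lib.Helper49

open QuadraticMap Module

section

variable {F V : Type*} [Field F] [AddCommGroup V] [Module F V] (Q : QuadraticForm F V)

/-- the pointwise stabiliser of a subspace in the orthogonal group -/
def fixSub (T : Submodule F V) : Subgroup (OG Q) where
  carrier := {g | ∀ x ∈ T, g.1 x = x}
  one_mem' := fun _ _ => rfl
  mul_mem' {a b} ha hb := by
    intro x hx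
    change a.1 (b.1 x) = x
    rw [hb x hx, ha x hx]
  inv_mem' {a} ha := by
    intro x hx
    have h1 : a⁻¹.1 (a.1 x) = x := by
      change (a⁻¹ * a).1 x = x
      rw [inv_mul_cancel]; rfl
    rw [ha x hx] at h1
    exact h1

theorem mem_fixSub {T : Submodule F V} {g : OG Q} : g ∈ fixSub Q T ↔ ∀ x ∈ T, g.1 x = x := Iff.rfl

theorem refl_mem_fixSub {T : Submodule F V} {y : V} (hy : ∀ x ∈ T, polar Q y x = 0) :
    refl Q y ∈ fixSub Q T := by
  intro x hx
  rw [refl_coe_apply, reflLin_of_polar_eq_zero Q _ _ (hy x hx)]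

theorem Q_hyp_add {e f : V} (he : Q e = 0) (hf : Q f = 0) (hef : polar Q e f = 1) (c : F) :
    Q (e + c • f) = c := by
  rw [Q_add_eq, QuadraticMap.map_smul, he, hf, polar_smul_right, hef]; simp

/-- two independent functionals `B(x, ·)`, `B(z, ·)` take arbitrary values -/
theorem exists_dual_pair (hQ : (polarBilin Q).Nondegenerate) {x z : V} (hx : x ≠ 0)
    (hz : ∀ c : F, z ≠ c • x) (α β : F) : ∃ u, polar Q x u = α ∧ polar Q z u = β := by
  obtain ⟨p, hp⟩ := exists_polar_eq_one Q hQ hx
  obtain ⟨p', hp', hzp'⟩ : ∃ p', polar Q x p' = 0 ∧ polar Q z p' = 1 := by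
    have : ∃ p', polar Q x p' = 0 ∧ polar Q z p' ≠ 0 := by
      by_contra hcon
      push Not at hcon
      apply hz (polar Q z p)
      rw [← sub_eq_zero]
      apply hQ.1
      intro v
      have h1 := hcon (v - polar Q x v • p) (by
        rw [polar_sub_right, polar_smul_right, hp]; simp)
      rw [polar_sub_right, polar_smul_right, smul_eq_mul] at h1
      change polar Q (z - polar Q z p • x) v = 0
      rw [polar_sub_left, polar_smul_left, smul_eq_mul]
      linear_combination h1
    obtain ⟨p', h1, h2⟩ := this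
    exact ⟨(polar Q z p')⁻¹ • p', by rw [polar_smul_right, h1]; simp, by
      rw [polar_smul_right, smul_eq_mul, inv_mul_cancel₀ h2]⟩
  refine ⟨α • p + (β - α * polar Q z p) • p', ?_, ?_⟩
  · rw [polar_add_right, polar_smul_right, polar_smul_right, hp, hp']; simp
  · rw [polar_add_right, polar_smul_right, polar_smul_right, hzp']; simp

end

section

variable {F V : Type*} [Field F] [Fintype F] [AddCommGroup V] [Module F V] [FiniteDimensional F V]
  (Q : QuadraticForm F V)

omit [AddCommGroup V] [Module F V] [FiniteDimensional F V] in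
theorem exists_nonsquare_or : ∃ δ : F, δ ≠ 0 ∧ ((2 : F) = 0 ∨ ¬ IsSquare δ) := by
  by_cases h2 : (2 : F) = 0
  · exact ⟨1, one_ne_zero, Or.inl h2⟩
  · obtain ⟨δ, hδ⟩ := FiniteField.exists_nonsquare (ringChar_ne_two_of_two_ne_zero h2)
    refine ⟨δ, ?_, Or.inr hδ⟩
    rintro rfl
    exact hδ ⟨0, by simp⟩

/-- an isometry can be corrected into the commutator subgroup by an isometry fixing pointwise a
subspace orthogonal to a hyperbolic pair -/
theorem exists_mul_mem_commutator_fix (hQ : (polarBilin Q).Nondegenerate)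
    (h : Fintype.card F ≠ 2 ∨ finrank F V ≠ 4) (T : Submodule F V) {e f : V} (he : Q e = 0)
    (hf : Q f = 0) (hef : polar Q e f = 1) (heT : ∀ x ∈ T, polar Q e x = 0)
    (hfT : ∀ x ∈ T, polar Q f x = 0) (g : OG Q) :
    ∃ k ∈ fixSub Q T, g * k ∈ commutator (OG Q) := by
  obtain ⟨δ, hδ0, hδ⟩ := exists_nonsquare_or (F := F)
  obtain ⟨y₁, hy₁⟩ : ∃ y₁, y₁ = e + (1 : F) • f := ⟨_, rfl⟩
  have h1 : Q y₁ = 1 := by rw [hy₁]; exact Q_hyp_add Q he hf hef 1
  have h2 : Q (e + δ • f) = δ := Q_hyp_add Q he hf hef δ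
  have m : ∀ c : F, refl Q (e + c • f) ∈ fixSub Q T := by
    intro c
    apply refl_mem_fixSub
    intro x hx
    rw [polar_add_left, polar_smul_left, heT x hx, hfT x hx]; simp
  have m1 : refl Q y₁ ∈ fixSub Q T := by rw [hy₁]; exact m 1
  exact exists_mul_mem_commutator Q hQ h (fixSub Q T) [y₁]
    [y₁, e + δ • f]
    (by simp [h1]) (by simpa using m1) (by simp)
    (by
      intro z hz
      simp only [List.mem_cons, List.not_mem_nil, or_false] at hz
      rcases hz with rfl | rfl
      · rw [h1]; exact one_ne_zero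
      · rw [h2]; exact hδ0)
    (by simpa using Subgroup.mul_mem _ m1 (m δ)) ⟨1, rfl⟩ (by simpa [h1, h2] using hδ) g

/-- Witt's lemma inside the commutator subgroup, for small subspaces -/
theorem witt_commutator (hQ : (polarBilin Q).Nondegenerate)
    (h : Fintype.card F ≠ 2 ∨ finrank F V ≠ 4) (X Y : Submodule F V) (φ : X ≃ₗ[F] Y)
    (hφ : ∀ x : X, Q (φ x : V) = Q (x : V)) (hX : 2 * finrank F X + 3 ≤ finrank F V) :
    ∃ k ∈ commutator (OG Q), ∀ x : X, k.1 (x : V) = (φ x : V) := by
  obtain ⟨g, hg⟩ := witt_OG Q hQ X Y φ hφ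
  have h1 := LinearMap.BilinForm.finrank_orthogonal hQ X
  have h2 := Submodule.finrank_le X
  obtain ⟨e, he, f, hf, h3, h4, h5⟩ := exists_hyp_pair_mem Q hQ
    (LinearMap.BilinForm.orthogonal (polarBilin Q) X) (by omega)
  obtain ⟨k, hk, hgk⟩ := exists_mul_mem_commutator_fix Q hQ h X h3 h4 h5
    (fun x hx => by rw [polar_comm]; exact he x hx) (fun x hx => by rw [polar_comm]; exact hf x hx) g
  refine ⟨g * k, hgk, fun x => ?_⟩
  change g.1 (k.1 x) = _
  rw [hk x x.2, hg]

/-- the commutator subgroup is transitive on pairs of independent vectors with given norms and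
inner product -/
theorem exists_commutator_map_pair (hQ : (polarBilin Q).Nondegenerate) (hd : 7 ≤ finrank F V)
    {a b a' b' : V} (hab : LinearIndependent F ![a, b]) (hab' : LinearIndependent F ![a', b'])
    (h1 : Q a = Q a') (h2 : Q b = Q b') (h3 : polar Q a b = polar Q a' b') :
    ∃ k ∈ commutator (OG Q), k.1 a = a' ∧ k.1 b = b' := by
  let bX := Module.Basis.span hab
  let bY := Module.Basis.span hab'
  let φ := bX.equiv bY (Equiv.refl _)
  have hX : finrank F (Submodule.span F (Set.range ![a, b])) = 2 := by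
    rw [finrank_span_eq_card hab]; simp
  have key : ∀ x : Submodule.span F (Set.range ![a, b]),
      (x : V) = bX.repr x 0 • a + bX.repr x 1 • b ∧
      (φ x : V) = bX.repr x 0 • a' + bX.repr x 1 • b' := by
    intro x
    constructor
    · have := congrArg Subtype.val (bX.sum_repr x)
      rw [Fin.sum_univ_two] at this
      simp only [Submodule.coe_add, Submodule.coe_smul] at this
      rw [← this]
      simp [bX, Module.Basis.span_apply]
    · have e : φ x = bX.repr x 0 • bY 0 + bX.repr x 1 • bY 1 := by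
        conv_lhs => rw [← bX.sum_repr x]
        rw [Fin.sum_univ_two, map_add, map_smul, map_smul]
        simp [φ]
      rw [e]
      simp [bY, Module.Basis.span_apply]
  obtain ⟨k, hk, hkx⟩ := witt_commutator Q hQ (Or.inr (by omega)) _ _ φ (by
    intro x
    rw [(key x).1, (key x).2, Q_add_eq, Q_add_eq]
    simp only [QuadraticMap.map_smul, polar_smul_left, polar_smul_right, h1, h2, h3]) (by omega)
  refine ⟨k, hk, ?_, ?_⟩
  · have h4 := hkx (bX 0)
    have h5 : φ (bX 0) = bY 0 := by simp [φ]
    rw [h5] at h4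
    simpa [bX, bY, Module.Basis.span_apply] using h4
  · have h4 := hkx (bX 1)
    have h5 : φ (bX 1) = bY 1 := by simp [φ]
    rw [h5] at h4
    simpa [bX, bY, Module.Basis.span_apply] using h4

end

end Cfsg.Agent.Lib.Helper49
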