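import Cfsg.Agent.Lib.Helper95.AutO.Pt
import Cfsg.Agent.Lib.Helper29.AutOIrr
import Cfsg.Agent.Lib.Helper74.AutOSemiA

set_option autoImplicit false
set_option linter.unusedSimpArgs false

/-! A semilinear map commuting with all Siegel transformations is a scalar. -/

namespace Cfsg.Agent.Lib.Helper49

open QuadraticMap Module Cfsg.Agent.Lib.Helper95 Cfsg.Agent.Lib.Helper95.AutO

variable {F V : Type*} [Field F] [Fintype F] [AddCommGroup V] [Module F V] [FiniteDimensional F V]
  {Q : QuadraticForm F V}

theorem semi_fix_singular (hQ : (polarBilin Q).Nondegenerate) (hd : 7 ≤ finrank F V)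
    (γ : V → V) (hadd : ∀ x y, γ (x + y) = γ x + γ y)
    (hcomm : ∀ e w, Q e = 0 → polar Q e w = 0 → ∀ x, γ ((si Q e w).1 x) = (si Q e w).1 (γ x))
    {e : V} (he : Q e = 0) : ∃ c : F, γ e = c • e := by
  have h0 : γ 0 = 0 := by
    have := hadd 0 0
    rw [add_zero] at this
    exact left_eq_add.1 this
  by_cases he0 : e = 0
  · exact ⟨0, by rw [he0, h0]; simp⟩
  have hsub : ∀ x y, γ (x - y) = γ x - γ y := by
    intro x y
    have := hadd (x - y) y
    rw [sub_add_cancel] at this
    rw [this]; abel
  obtain ⟨b, f, hb, hf, hbf, heb, hef, -, -⟩ :=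
    Cfsg.Agent.Lib.Helper29.AutO.exists_hyp_pair_perp Q hQ hd e e
  have key : ∀ w, polar Q e w = 0 → (∀ c : F, w ≠ c • e) → ∃ α β : F, γ e = α • w + β • e := by
    intro w hw hne
    obtain ⟨z, hz1, hz2⟩ := qsep1 hQ hne
    have h1 := hcomm e w he hw z
    rw [si_apply he hw, si_apply he hw, polar_comm Q e z, hz1, polar_comm Q w z, hz2] at h1
    simp only [zero_smul, add_zero, one_smul, mul_zero, sub_zero] at h1
    rw [hsub] at h1
    refine ⟨- polar Q e (γ z), polar Q w (γ z) + Q w * polar Q e (γ z), ?_⟩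
    have : γ e = γ z - (γ z + polar Q e (γ z) • w - polar Q w (γ z) • e
        - (Q w * polar Q e (γ z)) • e) := by rw [← h1]; abel
    rw [this]
    module
  obtain ⟨α₁, β₁, h1⟩ := key b heb (by
    intro c hc
    have : polar Q b f = c * polar Q e f := by rw [hc, polar_smul_left, smul_eq_mul]
    rw [hbf, hef, mul_zero] at this
    exact one_ne_zero this)
  obtain ⟨α₂, β₂, h2⟩ := key f hef (by
    intro c hc
    have : polar Q b f = c * polar Q b e := by rw [hc, polar_smul_right, smul_eq_mul]
    rw [hbf, polar_comm, heb, mul_zero] at this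
    exact one_ne_zero this)
  have h3 : polar Q (γ e) f = α₁ := by
    rw [h1, polar_add_left, polar_smul_left, polar_smul_left, hbf, hef]; simp
  have h4 : polar Q (γ e) f = 0 := by
    rw [h2, polar_add_left, polar_smul_left, polar_smul_left, polar_self_of_Q hf, hef]; simp
  rw [h4] at h3
  exact ⟨β₁, by rw [h1, ← h3]; simp⟩

theorem semi_scalar_of_commutes (hQ : (polarBilin Q).Nondegenerate) (hd : 7 ≤ finrank F V)
    (γ : V → V) (σ : F ≃+* F) (hadd : ∀ x y, γ (x + y) = γ x + γ y)
    (hsm : ∀ (a : F) x, γ (a • x) = σ a • γ x) (hinj : Function.Injective γ)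
    (hcomm : ∀ e w, Q e = 0 → polar Q e w = 0 → ∀ x, γ ((si Q e w).1 x) = (si Q e w).1 (γ x)) :
    σ = 1 ∧ ∃ c : F, c ≠ 0 ∧ ∀ x, γ x = c • x := by
  have h0 : γ 0 = 0 := by
    have := hadd 0 0
    rw [add_zero] at this
    exact left_eq_add.1 this
  have hfix : ∀ e, Q e = 0 → ∃ c : F, γ e = c • e :=
    fun e he => semi_fix_singular hQ hd γ hadd hcomm he
  -- orthogonal independent singular vectors have the same eigenvalue
  have step : ∀ u v (a b : F), Q u = 0 → Q v = 0 → polar Q u v = 0 → (∀ c : F, v ≠ c • u) →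
      u ≠ 0 → γ u = a • u → γ v = b • v → a = b := by
    intro u v a b hu hv huv hne hu0 ha hb
    have huv' : Q (u + v) = 0 := by rw [qmap_add, hu, hv, huv]; simp
    obtain ⟨c, hc⟩ := hfix _ huv'
    rw [hadd, ha, hb] at hc
    have h1 : (b - c) • v = (c - a) • u := by
      have : (b - c) • v - (c - a) • u = a • u + b • v - c • (u + v) := by module
      rw [← sub_eq_zero, this, hc, sub_self]
    have hbc : b - c = 0 := by
      by_contra hbc
      apply hne ((b - c)⁻¹ * (c - a))
      rw [mul_smul, ← h1, smul_smul, inv_mul_cancel₀ hbc, one_smul]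
    rw [hbc, zero_smul] at h1
    have hca : c - a = 0 := (smul_eq_zero.1 h1.symm).resolve_right hu0
    rw [sub_eq_zero] at hbc hca
    rw [hbc, hca]
  obtain ⟨u, u', hu, hu', huu', -⟩ :=
    Cfsg.Agent.Lib.Helper29.AutO.exists_hyp_pair_perp Q hQ hd 0 0
  have hu0 : u ≠ 0 := by
    rintro rfl
    simp at huu'
  obtain ⟨l, hl⟩ := hfix u hu
  have hl0 : l ≠ 0 := by
    rintro rfl
    rw [zero_smul, ← h0] at hl
    exact hu0 (hinj hl)
  -- every singular vector has eigenvalue `l`
  have hall : ∀ e, Q e = 0 → γ e = l • e := by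
    intro e he
    by_cases he0 : e = 0
    · rw [he0, h0, smul_zero]
    obtain ⟨c, hc⟩ := hfix e he
    obtain ⟨b, f, hb, hf, hbf, heb, hef, hub, huf⟩ :=
      Cfsg.Agent.Lib.Helper29.AutO.exists_hyp_pair_perp Q hQ hd e u
    obtain ⟨d, hd'⟩ := hfix b hb
    have h1 : c = d := step e b c d he hb heb (by
      intro k hk
      have : polar Q b f = k * polar Q e f := by rw [hk, polar_smul_left, smul_eq_mul]
      rw [hbf, hef, mul_zero] at this
      exact one_ne_zero this) he0 hc hd'
    have h2 : l = d := step u b l d hu hb hub (by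
      intro k hk
      have : polar Q b f = k * polar Q u f := by rw [hk, polar_smul_left, smul_eq_mul]
      rw [hbf, huf, mul_zero] at this
      exact one_ne_zero this) hu0 hl hd'
    rw [hc, h1, h2]
  have hσ : σ = 1 := by
    ext t
    have h1 : Q (t • u) = 0 := by rw [QuadraticMap.map_smul, hu, smul_zero]
    have h2 := hall _ h1
    rw [hsm, hl, smul_smul, smul_smul] at h2
    have h3 : (σ t * l - l * t) • u = 0 := by rw [sub_smul, h2, sub_self]
    have h4 := (smul_eq_zero.1 h3).resolve_right hu0
    have h5 : (σ t - t) * l = 0 := by linear_combination h4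
    have := (mul_eq_zero.1 h5).resolve_right hl0
    rw [sub_eq_zero] at this
    rw [this]; rfl
  refine ⟨hσ, l, hl0, fun x => ?_⟩
  let S : AddSubgroup V :=
    { carrier := {x | γ x = l • x}
      add_mem' := by
        intro a b ha hb
        change γ (a + b) = l • (a + b)
        rw [hadd, ha, hb, smul_add]
      zero_mem' := by
        change γ 0 = l • (0 : V)
        rw [h0, smul_zero]
      neg_mem' := by
        intro a ha
        change γ (-a) = l • (-a)
        have := hadd a (-a)
        rw [add_neg_cancel, h0] at this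
        have h2 : γ (-a) = - γ a := by
          rw [eq_neg_iff_add_eq_zero, add_comm]; exact this.symm
        rw [h2, ha, smul_neg] }
  exact Cfsg.Agent.Lib.Helper74.AutO.mem_of_singular_mem Q hQ (by omega) S hall x

end Cfsg.Agent.Lib.Helper49
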