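import Cfsg.Agent.Lib.Helper49.GamO2
import Cfsg.Agent.Lib.Helper49.GamO3
import Cfsg.Agent.Lib.Helper95.AutO.Proj
import Cfsg.Agent.Lib.Helper29.AutOGlue

set_option autoImplicit false
set_option linter.unusedSimpArgs false

/-! The kernel of `ΓO(Q) → Aut(PΩ(Q))` consists of the scalars. -/

namespace Cfsg.Agent.Lib.Helper49

open QuadraticMap Module Matrix Cfsg.Agent.Lib.Helper95 Cfsg.Agent.Lib.Helper95.AutO
  Cfsg.Agent.Lib.Helper29.AutO
open scoped MatrixGroups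

variable {ι : Type} [Fintype ι] [DecidableEq ι] {F : Type*} [Field F] [Fintype F]
variable (Q : QuadraticForm F (ι → F))

/-- central elements of `Ω` act as `±1` -/
theorem center_Omega_mulVec (hQ : (polarBilin Q).Nondegenerate) (hd : 7 ≤ Fintype.card ι)
    (z : ↥(Cfsg.Omega F ⇑Q)) (hz : z ∈ Subgroup.center ↥(Cfsg.Omega F ⇑Q)) :
    ∃ c : F, c * c = 1 ∧ ∀ v, ((z.1.1 : GL ι F) : Matrix ι ι F) *ᵥ v = c • v := by
  have hd' : 7 ≤ finrank F (ι → F) := by rwa [Module.finrank_fintype_fun_eq_card]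
  have h1 : omegaEquiv Q z ∈ Subgroup.center ↥(commutator ↥(OG Q)) := by
    rw [← map_center_mulEquiv (omegaEquiv Q)]
    exact Subgroup.mem_map_of_mem _ hz
  obtain ⟨c, hc⟩ := center_scalar hQ hd' h1
  obtain ⟨w, -, hw⟩ := qexists_perp_nonsing Q hQ (![] : Fin 0 → (ι → F)) (by omega)
  refine ⟨c, ?_, fun v => hc v⟩
  have h2 := OG_apply Q (omegaEquiv Q z).1 w
  rw [hc, QuadraticMap.map_smul, smul_eq_mul] at h2
  exact mul_right_cancel₀ hw (by rw [h2, one_mul])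

theorem ker_cGam_aux (hQ : (polarBilin Q).Nondegenerate) (hd : 7 ≤ Fintype.card ι)
    (x : ↥(GamO ⇑Q)) (hx : cGam ⇑Q x = 1) (s : ↥(Cfsg.Omega F ⇑Q)) :
    ∃ c : F, c * c = 1 ∧ ∀ v, ((actGL x.1 s.1.1 : GL ι F) : Matrix ι ι F) *ᵥ v =
      c • (((s.1.1 : GL ι F) : Matrix ι ι F) *ᵥ v) := by
  have h1 := cGam_mk ⇑Q x s
  rw [hx, MulAut.one_apply] at h1
  have h2 := QuotientGroup.eq.1 h1
  obtain ⟨c, hc, h3⟩ := center_Omega_mulVec Q hQ hd _ h2
  refine ⟨c, hc, fun v => ?_⟩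
  have h4 := h3 v
  simp only [Subgroup.coe_mul, Subgroup.coe_inv, InvMemClass.coe_inv, charRestrict_apply_coe,
    actO_apply_coe, Units.val_mul] at h4
  rw [← Matrix.mulVec_mulVec] at h4
  have h5 := congrArg (fun u => ((s.1.1 : GL ι F) : Matrix ι ι F) *ᵥ u) h4
  simp only [Matrix.mulVec_mulVec, ← Units.val_mul, mul_inv_cancel, Units.val_one,
    Matrix.one_mulVec, Matrix.mulVec_smul] at h5
  rwa [mul_inv_cancel_left] at h5

theorem ker_cGam_comm (hQ : (polarBilin Q).Nondegenerate) (hd : 7 ≤ Fintype.card ι)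
    (x : ↥(GamO ⇑Q)) (hx : cGam ⇑Q x = 1) (e w : ι → F) (he : Q e = 0) (hw : polar Q e w = 0)
    (v : ι → F) : semiFun x.1 ((si Q e w).1 v) = (si Q e w).1 (semiFun x.1 v) := by
  have hd' : 5 ≤ finrank F (ι → F) := by rw [Module.finrank_fintype_fun_eq_card]; omega
  -- elements of `Ω` attached to Siegel maps
  have key : ∀ w', polar Q e w' = 0 → ∃ s : ↥(Cfsg.Omega F ⇑Q),
      ∀ u, ((s.1.1 : GL ι F) : Matrix ι ι F) *ᵥ u = (si Q e w').1 u := by
    intro w' _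
    refine ⟨(omegaEquiv Q).symm ⟨si Q e w', si_mem_commutator hQ hd' e w'⟩, fun u => ?_⟩
    rw [← omegaEquiv_apply, MulEquiv.apply_symm_apply]
  by_cases h2 : (2 : F) = 0
  · obtain ⟨s, hs⟩ := key w hw
    obtain ⟨c, hc, h3⟩ := ker_cGam_aux Q hQ hd x hx s
    have hc1 : c = 1 := by
      have : (c - 1) * (c - 1) = 0 := by linear_combination hc - (c - 1) * h2
      have := mul_self_eq_zero.1 this
      exact sub_eq_zero.1 this
    rw [← hs, ← actGL_mulVec, h3, hc1, one_smul, hs]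
  · have hw2 : polar Q e ((2 : F)⁻¹ • w) = 0 := by rw [polar_smul_right, hw, smul_zero]
    obtain ⟨s, hs⟩ := key _ hw2
    obtain ⟨c, hc, h3⟩ := ker_cGam_aux Q hQ hd x hx s
    have e1 : si Q e w = si Q e ((2 : F)⁻¹ • w) * si Q e ((2 : F)⁻¹ • w) := by
      rw [si_mul he hw2 hw2, ← add_smul]
      congr 1
      have : (2 : F)⁻¹ + (2 : F)⁻¹ = 1 := by field_simp; norm_num
      rw [this, one_smul]
    rw [e1]
    simp only [Subgroup.coe_mul, LinearEquiv.mul_apply]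
    rw [← hs, ← hs, ← actGL_mulVec, ← actGL_mulVec, h3, h3, Matrix.mulVec_smul, smul_smul, hc,
      one_smul, hs, hs]

theorem ker_cGam (hQ : (polarBilin Q).Nondegenerate) (hd : 7 ≤ Fintype.card ι)
    (x : ↥(GamO ⇑Q)) (hx : cGam ⇑Q x = 1) :
    x.1.right = 1 ∧ ∃ c : Fˣ, (x.1.left : Matrix ι ι F) = (c : F) • (1 : Matrix ι ι F) := by
  have hd' : 7 ≤ finrank F (ι → F) := by rwa [Module.finrank_fintype_fun_eq_card]
  obtain ⟨h1, c, hc0, hc⟩ := semi_scalar_of_commutes hQ hd' (semiFun x.1) x.1.right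
    (semiFun_add x.1) (semiFun_smul x.1)
    (fun a b hab => by
      have := congrArg (semiFun x.1⁻¹) hab
      rwa [semiFun_inv_semiFun, semiFun_inv_semiFun] at this)
    (fun e w he hw v => ker_cGam_comm Q hQ hd x hx e w he hw v)
  refine ⟨h1, Units.mk0 c hc0, ?_⟩
  apply Matrix.mulVec_injective
  funext v
  have := hc v
  unfold semiFun at this
  rw [h1] at this
  simp only [RingAut.one_apply] at this
  rw [this]
  simp [Matrix.smul_mulVec]

end Cfsg.Agent.Lib.Helper49
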