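import Cfsg.Agent.Lib.Helper49.GamO4
import Cfsg.Agent.Lib.Helper50.QuadIso

set_option autoImplicit false
set_option linter.unusedSimpArgs false

/-! `ΓO(Q)`: the field automorphism part is surjective, multipliers are surjective (even dimension),
and the resulting count `|ΓO(Q)| = |O(Q)| (q-1) |Aut F|`. -/

namespace Cfsg.Agent.Lib.Helper49

open QuadraticMap Module Matrix
open scoped MatrixGroups

section groups

theorem card_eq_card_ker_mul {G H : Type*} [Group G] [Group H] (f : G →* H)
    (hf : Function.Surjective f) : Nat.card G = Nat.card f.ker * Nat.card H := by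
  rw [Subgroup.card_eq_card_quotient_mul_card_subgroup f.ker,
    Nat.card_congr (QuotientGroup.quotientKerEquivOfSurjective f hf).toEquiv, mul_comm]

theorem card_ker_eq_of_range {K G H : Type*} [Group K] [Group G] [Group H] (f : G →* H) (j : K →* G)
    (hj : Function.Injective j) (h : j.range = f.ker) : Nat.card f.ker = Nat.card K := by
  rw [← h]
  exact (Nat.card_congr (MonoidHom.ofInjective hj).toEquiv).symm

end groups

variable {ι : Type} [Fintype ι] [DecidableEq ι] {F : Type*} [Field F]

section twist

variable (Q : QuadraticForm F (ι → F)) (σ : F ≃+* F)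

/-- the form `v ↦ σ (Q (σ⁻¹ v))` -/
def twistQF : QuadraticForm F (ι → F) where
  toFun v := σ (Q (fun i => σ.symm (v i)))
  toFun_smul a x := by
    have : (fun i => σ.symm ((a • x) i)) = σ.symm a • (fun i => σ.symm (x i)) := by
      funext i; simp
    rw [this, QuadraticMap.map_smul]
    simp
  exists_companion' := by
    refine ⟨LinearMap.mk₂ F (fun x y => σ (polar Q (fun i => σ.symm (x i)) (fun i => σ.symm (y i))))
      ?_ ?_ ?_ ?_, ?_⟩
    · intro x x' y
      have : (fun i => σ.symm ((x + x') i)) = (fun i => σ.symm (x i)) + (fun i => σ.symm (x' i)) := by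
        funext i; simp
      rw [this, polar_add_left, map_add]
    · intro a x y
      have : (fun i => σ.symm ((a • x) i)) = σ.symm a • (fun i => σ.symm (x i)) := by
        funext i; simp
      rw [this, polar_smul_left]
      simp
    · intro x y y'
      have : (fun i => σ.symm ((y + y') i)) = (fun i => σ.symm (y i)) + (fun i => σ.symm (y' i)) := by
        funext i; simp
      rw [this, polar_add_right, map_add]
    · intro a x y
      have : (fun i => σ.symm ((a • y) i)) = σ.symm a • (fun i => σ.symm (y i)) := by
        funext i; simp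
      rw [this, polar_smul_right]
      simp
    · intro x y
      have : (fun i => σ.symm ((x + y) i)) = (fun i => σ.symm (x i)) + (fun i => σ.symm (y i)) := by
        funext i; simp
      rw [this]
      simp only [LinearMap.mk₂_apply, polar, map_sub]
      ring

theorem twistQF_apply (v : ι → F) : twistQF Q σ v = σ (Q (fun i => σ.symm (v i))) := rfl

theorem polar_twistQF (u v : ι → F) : polar (twistQF Q σ) u v =
    σ (polar Q (fun i => σ.symm (u i)) (fun i => σ.symm (v i))) := by
  have : (fun i => σ.symm ((u + v) i)) = (fun i => σ.symm (u i)) + (fun i => σ.symm (v i)) := by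
    funext i; simp
  simp only [polar, twistQF_apply, this, map_sub]

end twist

variable [Fintype F] (Q : QuadraticForm F (ι → F))

open Cfsg.Agent.Lib.Helper50.Quad in
theorem exists_semi_isometry (hQ : (polarBilin Q).Nondegenerate) (d : ℕ)
    (hd : Fintype.card ι = 2 * (d + 1)) (σ : F ≃+* F) :
    ∃ g : GL ι F, ∀ v, Q ((g : Matrix ι ι F) *ᵥ (fun i => σ (v i))) = σ (Q v) := by
  have hfin : finrank F (ι → F) = 2 * (d + 1) := by rw [Module.finrank_fintype_fun_eq_card, hd]
  have hQ' := nondeg_top hQ
  have hT : Nondeg (twistQF Q σ) ⊤ := by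
    intro w _ hw0
    obtain ⟨w', -, h⟩ := hQ' (fun i => σ.symm (w i)) trivial (by
      intro h0
      apply hw0
      funext i
      have := congrFun h0 i
      simpa using this)
    refine ⟨fun i => σ (w' i), trivial, ?_⟩
    rw [polar_twistQF]
    simpa using h
  obtain ⟨g, hg⟩ := iso_of_card_sing (Q := twistQF Q σ) (Q' := Q) d hfin hfin hT hQ'
    (Nat.card_congr
      { toFun := fun v => ⟨fun i => σ.symm (v.1 i), by
          have := v.2
          rw [twistQF_apply] at this
          simpa using this⟩
        invFun := fun v => ⟨fun i => σ (v.1 i), by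
          rw [twistQF_apply]
          simpa using v.2⟩
        left_inv := fun v => Subtype.ext (by funext i; simp)
        right_inv := fun v => Subtype.ext (by funext i; simp) })
  refine ⟨(glEquiv ι F).symm g, fun v => ?_⟩
  rw [← glEquiv_apply, MulEquiv.apply_symm_apply, hg, twistQF_apply]
  simp

open Cfsg.Agent.Lib.Helper50.Quad in
theorem exists_similarity (hQ : (polarBilin Q).Nondegenerate) (d : ℕ)
    (hd : Fintype.card ι = 2 * (d + 1)) (c : Fˣ) :
    ∃ g : GL ι F, ∀ v, Q ((g : Matrix ι ι F) *ᵥ v) = c * Q v := by
  have hfin : finrank F (ι → F) = 2 * (d + 1) := by rw [Module.finrank_fintype_fun_eq_card, hd]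
  have hQ' := nondeg_top hQ
  have hpol : ∀ u v, polar ((c : F) • Q) u v = c * polar Q u v := by
    intro u v
    simp only [polar, QuadraticMap.smul_apply, smul_eq_mul]
    ring
  have hcQ : Nondeg ((c : F) • Q) ⊤ := by
    intro w hw hw0
    obtain ⟨w', hw', h⟩ := hQ' w hw hw0
    exact ⟨w', hw', by rw [hpol]; exact mul_ne_zero c.ne_zero h⟩
  obtain ⟨g, hg⟩ := iso_of_card_sing (Q := (c : F) • Q) (Q' := Q) d hfin hfin hcQ hQ'
    (Nat.card_congr (Equiv.subtypeEquivRight (fun v => by
      simp only [QuadraticMap.smul_apply, smul_eq_mul, mul_eq_zero, c.ne_zero, false_or])))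
  refine ⟨(glEquiv ι F).symm g, fun v => ?_⟩
  rw [← glEquiv_apply, MulEquiv.apply_symm_apply, hg]
  rfl

end Cfsg.Agent.Lib.Helper49
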