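import Cfsg.Agent.Lib.Helper49.GamO5

set_option autoImplicit false
set_option linter.unusedSimpArgs false
set_option linter.unusedSectionVars false

/-! Homomorphisms out of `ΓO(Q)` and `GO(Q)`, and the order of `Aut(PΩ)` when it equals `PΓO`. -/

namespace Cfsg.Agent.Lib.Helper49

open QuadraticMap Module Matrix
open scoped MatrixGroups

variable {ι : Type} [Fintype ι] [DecidableEq ι] {F : Type*} [Field F]

section fn

variable (Q : (ι → F) → F)

/-- the field automorphism of a semisimilarity pair -/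
def sigHom : ↥(GamO Q) →* (F ≃+* F) := SemidirectProduct.rightHom.comp (GamO Q).subtype

theorem sigHom_apply (x : ↥(GamO Q)) : sigHom Q x = x.1.right := rfl

/-- similarities as semisimilarity pairs -/
def goIncl : ↥(Cfsg.Geo.quadSimilarityGroup Q) →* ↥(GamO Q) where
  toFun g := ⟨SemidirectProduct.inl g.1, by
    obtain ⟨c, hc⟩ := g.2
    exact ⟨c, fun v => by simpa using hc v⟩⟩
  map_one' := Subtype.ext (by simp)
  map_mul' a b := Subtype.ext (by simp)

theorem goIncl_coe (g : ↥(Cfsg.Geo.quadSimilarityGroup Q)) :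
    (goIncl Q g).1 = SemidirectProduct.inl g.1 := rfl

theorem goIncl_injective : Function.Injective (goIncl Q) := by
  intro a b h
  have := congrArg (fun x : ↥(GamO Q) => x.1.left) h
  exact Subtype.ext this

theorem range_goIncl : (goIncl Q).range = (sigHom Q).ker := by
  ext x
  constructor
  · rintro ⟨g, rfl⟩
    rfl
  · intro hx
    have hx' : x.1.right = 1 := hx
    obtain ⟨c, hc⟩ := x.2
    refine ⟨⟨x.1.left, c, fun v => ?_⟩, ?_⟩
    · have := hc v
      rw [hx'] at this
      simpa using this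
    · apply Subtype.ext
      ext1
      · rfl
      · exact hx'.symm

/-- isometries as similarities -/
def oIncl : ↥(Cfsg.isometryGroup F Q) →* ↥(Cfsg.Geo.quadSimilarityGroup Q) where
  toFun g := ⟨g.1, 1, fun v => by
    have := g.2 v v
    simpa using this⟩
  map_one' := rfl
  map_mul' _ _ := rfl

theorem oIncl_injective : Function.Injective (oIncl Q) := by
  intro a b h
  have := congrArg (fun x : ↥(Cfsg.Geo.quadSimilarityGroup Q) => x.1) h
  exact Subtype.ext this

/-- the multiplier of a similarity -/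
noncomputable def mult (g : ↥(Cfsg.Geo.quadSimilarityGroup Q)) : Fˣ := Classical.choose g.2

theorem mult_spec (g : ↥(Cfsg.Geo.quadSimilarityGroup Q)) (v : ι → F) :
    Q ((g.1 : Matrix ι ι F) *ᵥ v) = (mult Q g : F) * Q v := Classical.choose_spec g.2 v

theorem mult_unique (hv : ∃ v, Q v ≠ 0) (g : ↥(Cfsg.Geo.quadSimilarityGroup Q)) (c : Fˣ)
    (hc : ∀ v, Q ((g.1 : Matrix ι ι F) *ᵥ v) = (c : F) * Q v) : mult Q g = c := by
  obtain ⟨v, hv⟩ := hv
  apply Units.ext
  have := mult_spec Q g v
  rw [hc] at this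
  exact (mul_right_cancel₀ hv this).symm

/-- the multiplier homomorphism -/
noncomputable def multHom (hv : ∃ v, Q v ≠ 0) : ↥(Cfsg.Geo.quadSimilarityGroup Q) →* Fˣ where
  toFun := mult Q
  map_one' := mult_unique Q hv 1 1 (fun v => by simp)
  map_mul' a b := mult_unique Q hv _ _ (fun v => by
    rw [Subgroup.coe_mul, Units.val_mul, ← Matrix.mulVec_mulVec, mult_spec Q a, mult_spec Q b,
      Units.val_mul, mul_assoc])

theorem multHom_apply (hv : ∃ v, Q v ≠ 0) (g : ↥(Cfsg.Geo.quadSimilarityGroup Q)) :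
    multHom Q hv g = mult Q g := rfl

theorem range_oIncl (hv : ∃ v, Q v ≠ 0) : (oIncl Q).range = (multHom Q hv).ker := by
  ext g
  constructor
  · rintro ⟨h, rfl⟩
    exact mult_unique Q hv _ 1 (fun v => by
      have : Q ((h.1 : Matrix ι ι F) *ᵥ v) = Q v := h.2 v v
      rw [Units.val_one, one_mul]
      exact this)
  · intro hg
    have hg' : mult Q g = 1 := hg
    refine ⟨⟨g.1, fun u _ => ?_⟩, rfl⟩
    have := mult_spec Q g u
    rw [hg'] at this
    simpa using this

end fn

section qf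

variable (Q : QuadraticForm F (ι → F))

/-- scalars as semisimilarity pairs -/
def scalHom : Fˣ →* ↥(GamO ⇑Q) where
  toFun c := ⟨SemidirectProduct.inl (Units.map (Matrix.scalar ι : F →+* Matrix ι ι F).toMonoidHom c),
    c * c, fun v => by
      have : ((Units.map (Matrix.scalar ι : F →+* Matrix ι ι F).toMonoidHom c : GL ι F) :
          Matrix ι ι F) *ᵥ v = (c : F) • v := by
        simp only [Units.coe_map, RingHom.toMonoidHom_eq_coe, MonoidHom.coe_coe,
          Matrix.scalar_apply, ← Matrix.smul_one_eq_diagonal, Matrix.smul_mulVec,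
          Matrix.one_mulVec]
      simp only [SemidirectProduct.left_inl, SemidirectProduct.right_inl, RingAut.one_apply]
      rw [this, QuadraticMap.map_smul]
      simp⟩
  map_one' := Subtype.ext (by simp)
  map_mul' a b := Subtype.ext (by simp)

theorem scalHom_left (c : Fˣ) : (((scalHom Q c).1.left : GL ι F) : Matrix ι ι F) =
    (c : F) • (1 : Matrix ι ι F) := by
  simp [scalHom, Matrix.scalar_apply, Matrix.smul_one_eq_diagonal]

theorem scalHom_right (c : Fˣ) : (scalHom Q c).1.right = 1 := rfl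

theorem scalHom_injective [Nonempty ι] : Function.Injective (scalHom Q) := by
  intro a b h
  have h1 := scalHom_left Q a
  rw [h, scalHom_left] at h1
  obtain ⟨i⟩ := ‹Nonempty ι›
  have := congrFun (congrFun h1 i) i
  apply Units.ext
  simpa using this.symm

theorem cGam_scalHom (c : Fˣ) : cGam ⇑Q (scalHom Q c) = 1 := by
  ext t
  induction t using QuotientGroup.induction_on with
  | H s =>
    rw [cGam_mk, MulAut.one_apply]
    congr 1
    apply Subtype.ext
    apply Subtype.ext
    rw [charRestrict_apply_coe, actO_apply_coe, actGL_apply, scalHom_right, map_one,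
      MulAut.one_apply]
    apply Units.ext
    rw [Units.val_mul, Units.val_mul, scalHom_left]
    have : (((scalHom Q c).1.left⁻¹ : GL ι F) : Matrix ι ι F) = ((c⁻¹ : Fˣ) : F) • 1 := by
      rw [← scalHom_left Q c⁻¹, map_inv]
      rfl
    rw [this]
    simp [smul_smul]

variable [Fintype F]

theorem range_scalHom (hQ : (polarBilin Q).Nondegenerate) (hd : 7 ≤ Fintype.card ι) :
    (scalHom Q).range = (cGam ⇑Q).ker := by
  ext x
  constructor
  · rintro ⟨c, rfl⟩
    exact cGam_scalHom Q c
  · intro hx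
    obtain ⟨h1, c, hc⟩ := ker_cGam Q hQ hd x hx
    refine ⟨c, ?_⟩
    apply Subtype.ext
    ext1
    · apply Units.ext
      rw [scalHom_left, hc]
    · rw [scalHom_right, h1]

theorem exists_nonsing (hQ : (polarBilin Q).Nondegenerate) (hd : 1 ≤ Fintype.card ι) :
    ∃ v, Q v ≠ 0 := by
  obtain ⟨w, -, hw⟩ := Cfsg.Agent.Lib.Helper95.qexists_perp_nonsing Q hQ (![] : Fin 0 → (ι → F))
    (by rw [Module.finrank_fintype_fun_eq_card]; omega)
  exact ⟨w, hw⟩

theorem sigHom_surjective (hQ : (polarBilin Q).Nondegenerate) (d : ℕ)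
    (hd : Fintype.card ι = 2 * (d + 1)) : Function.Surjective (sigHom ⇑Q) := by
  intro σ
  obtain ⟨g, hg⟩ := exists_semi_isometry Q hQ d hd σ
  exact ⟨⟨⟨g, σ⟩, 1, fun v => by simpa using hg v⟩, rfl⟩

theorem multHom_surjective (hQ : (polarBilin Q).Nondegenerate) (d : ℕ)
    (hd : Fintype.card ι = 2 * (d + 1)) (hv : ∃ v, Q v ≠ 0) :
    Function.Surjective (multHom ⇑Q hv) := by
  intro c
  obtain ⟨g, hg⟩ := exists_similarity Q hQ d hd c
  exact ⟨⟨g, c, hg⟩, mult_unique ⇑Q hv _ c hg⟩

/-- `|ΓO| = |O| (q-1) |Aut F|` in even dimension -/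
theorem card_GamO (hQ : (polarBilin Q).Nondegenerate) (d : ℕ)
    (hd : Fintype.card ι = 2 * (d + 1)) :
    Nat.card ↥(GamO ⇑Q) = Nat.card ↥(Cfsg.isometryGroup F ⇑Q) * Nat.card Fˣ *
      Nat.card (F ≃+* F) := by
  have hv := exists_nonsing Q hQ (by omega)
  rw [card_eq_card_ker_mul _ (sigHom_surjective Q hQ d hd),
    card_ker_eq_of_range _ _ (goIncl_injective ⇑Q) (range_goIncl ⇑Q),
    card_eq_card_ker_mul _ (multHom_surjective Q hQ d hd hv),
    card_ker_eq_of_range _ _ (oIncl_injective ⇑Q) (range_oIncl ⇑Q hv)]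

/-- if `Aut(PΩ) = PΓO` then `|Aut(PΩ)| = |Aut F| |O|` (even dimension at least 8) -/
theorem card_mulAut_of_gamma_top (hQ : (polarBilin Q).Nondegenerate) (d : ℕ)
    (hd : Fintype.card ι = 2 * (d + 1)) (h7 : 7 ≤ Fintype.card ι)
    (htop : Cfsg.gammaPOmega F ⇑Q = ⊤) :
    Nat.card (MulAut (Cfsg.POmega F ⇑Q)) =
      Nat.card (F ≃+* F) * Nat.card ↥(Cfsg.isometryGroup F ⇑Q) := by
  have : Nonempty ι := Fintype.card_pos_iff.1 (by omega)
  have hs : Function.Surjective (cGam ⇑Q) := by
    rw [← MonoidHom.range_eq_top, ← gammaPOmega_eq_range, htop]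
  have h1 := card_eq_card_ker_mul _ hs
  rw [card_ker_eq_of_range _ _ (scalHom_injective Q) (range_scalHom Q hQ h7),
    card_GamO Q hQ d hd] at h1
  have hpos : 0 < Nat.card Fˣ := Nat.card_pos
  have h2 : Nat.card Fˣ * (Nat.card (F ≃+* F) * Nat.card ↥(Cfsg.isometryGroup F ⇑Q)) =
      Nat.card Fˣ * Nat.card (MulAut (Cfsg.POmega F ⇑Q)) := by
    rw [← h1]; ring
  exact (Nat.eq_of_mul_eq_mul_left hpos h2).symm

end qf

end Cfsg.Agent.Lib.Helper49
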