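import Mathlib

set_option autoImplicit false

/-! The automorphism group of a finite field, as `F ≃+* F`. -/

namespace Cfsg.Agent.Lib.Helper49

variable {F : Type*} [Field F]

/-- ring automorphisms are `ZMod p`-algebra automorphisms -/
def ringAutEquivGal (p : ℕ) [Fact p.Prime] [Algebra (ZMod p) F] : (F ≃+* F) ≃* (F ≃ₐ[ZMod p] F) where
  toFun σ := AlgEquiv.ofRingEquiv (f := σ) (fun r => by
    have : (σ : F →+* F).comp (algebraMap (ZMod p) F) = algebraMap (ZMod p) F :=
      Subsingleton.elim _ _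
    exact congrArg (fun φ : ZMod p →+* F => φ r) this)
  invFun τ := τ.toRingEquiv
  left_inv σ := by ext; rfl
  right_inv τ := by ext; rfl
  map_mul' a b := by ext; rfl

theorem ringAutEquivGal_apply (p : ℕ) [Fact p.Prime] [Algebra (ZMod p) F] (σ : F ≃+* F) (x : F) :
    ringAutEquivGal p σ x = σ x := rfl

variable [Fintype F]

theorem exists_frob {p f : ℕ} [Fact p.Prime] (hF : Fintype.card F = p ^ f) :
    ∃ φ : F ≃+* F, (∀ x, φ x = x ^ p) ∧ orderOf φ = f ∧ (∀ σ : F ≃+* F, ∃ k : ℕ, σ = φ ^ k) ∧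
      Nat.card (F ≃+* F) = f := by
  have : CharP F p := charP_of_card_eq_prime_pow hF
  let _ : Algebra (ZMod p) F := ZMod.algebra F p
  have hfin : Module.finrank (ZMod p) F = f := by
    have h1 := Module.card_eq_pow_finrank (K := ZMod p) (V := F)
    rw [ZMod.card, hF] at h1
    exact (Nat.pow_right_injective (Fact.out : p.Prime).two_le h1).symm
  set e := ringAutEquivGal (F := F) p with he
  set Φ := FiniteField.frobeniusAlgEquivOfAlgebraic (ZMod p) F with hΦ
  have hbij := FiniteField.bijective_frobeniusAlgEquivOfAlgebraic_pow (ZMod p) F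
  refine ⟨e.symm Φ, fun x => ?_, ?_, fun σ => ?_, ?_⟩
  · change Φ x = x ^ p
    rw [hΦ, FiniteField.coe_frobeniusAlgEquivOfAlgebraic, ZMod.card]
  · rw [MulEquiv.orderOf_eq e.symm Φ, hΦ, FiniteField.orderOf_frobeniusAlgEquivOfAlgebraic, hfin]
  · obtain ⟨n, hn⟩ := hbij.2 (e σ)
    refine ⟨n.1, ?_⟩
    rw [← map_pow]
    apply e.injective
    rw [MulEquiv.apply_symm_apply]
    exact hn.symm
  · rw [Nat.card_congr e.toEquiv, ← Nat.card_congr (Equiv.ofBijective _ hbij), Nat.card_fin, hfin]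

end Cfsg.Agent.Lib.Helper49
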