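import Mathlib
import Cfsg.Agent.Lib.Helper49.FixParity
import Cfsg.Agent.Lib.Helper49.OmegaTrans

set_option autoImplicit false

namespace Cfsg.Agent.Lib.Helper49

open QuadraticMap Module

section Three

variable {F V : Type*} [Field F] [AddCommGroup V] [Module F V] (Q : QuadraticForm F V)

/-- three reflections in vectors of a subspace of dimension at most two compose to a reflection -/
theorem exists_refl_eq_three [FiniteDimensional F V] (hQ : (polarBilin Q).Nondegenerate)
    (S : Submodule F V) (hS : finrank F S ≤ 2) (x u u' : V) (hx : x ∈ S) (hu : u ∈ S)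
    (hu' : u' ∈ S) (hx0 : Q x ≠ 0) (hu0 : Q u ≠ 0) (hu0' : Q u' ≠ 0) :
    ∃ y, Q y ≠ 0 ∧ reflProd Q [x, u, u'] = refl Q y := by
  have hvs : ∀ v ∈ [x, u, u'], Q v ≠ 0 := by
    intro v hv
    simp only [List.mem_cons, List.not_mem_nil, or_false] at hv
    rcases hv with rfl | rfl | rfl <;> assumption
  have h1 := even_finrank_ker_dOG_reflProd Q hQ [x, u, u'] hvs
  have h2 : LinearMap.BilinForm.orthogonal (polarBilin Q) S ≤
      LinearMap.ker (dOG Q (reflProd Q [x, u, u'])) := by
    intro z hz
    rw [mem_ker_dOG]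
    apply reflProd_apply_of_ortho
    intro v hv
    simp only [List.mem_cons, List.not_mem_nil, or_false] at hv
    rcases hv with rfl | rfl | rfl
    · exact hz _ hx
    · exact hz _ hu
    · exact hz _ hu'
  have h3 := Submodule.finrank_mono h2
  have h4 := LinearMap.BilinForm.finrank_orthogonal hQ S
  have h5 := LinearMap.finrank_range_add_finrank_ker (dOG Q (reflProd Q [x, u, u']))
  have h6 := Submodule.finrank_le S
  apply eq_refl_of_finrank_range_dOG Q hQ
  simp only [List.length_cons, List.length_nil] at h1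
  rw [Nat.even_iff] at h1
  omega

end Three

section Cls

variable {F V : Type*} [Field F] [Fintype F] [AddCommGroup V] [Module F V] [FiniteDimensional F V]
  (Q : QuadraticForm F V)

/-- the subgroup generated by the reflections in vectors of norm `c` -/
def reflSub (c : F) : Subgroup (OG Q) := Subgroup.closure {g | ∃ v, Q v = c ∧ g = refl Q v}

omit [Fintype F] [FiniteDimensional F V] in
theorem refl_mem_reflSub {c : F} {v : V} (hv : Q v = c) : refl Q v ∈ reflSub Q c :=
  Subgroup.subset_closure ⟨v, hv, rfl⟩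

omit [Fintype F] [FiniteDimensional F V] in
theorem refl_mem_reflSub_of_sq {c t : F} (ht : t ≠ 0) {v : V} (hv : Q v = c * t ^ 2) :
    refl Q v ∈ reflSub Q c := by
  rw [← refl_smul Q v (inv_ne_zero ht)]
  apply refl_mem_reflSub
  rw [QuadraticMap.map_smul, hv, smul_eq_mul]
  field_simp

omit [Fintype F] [FiniteDimensional F V] in
theorem reflSub_normal (c : F) : (reflSub Q c).Normal := by
  refine ⟨fun n hn g => ?_⟩
  unfold reflSub at hn ⊢
  induction hn using Subgroup.closure_induction with
  | mem x hx =>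
    obtain ⟨v, hv, rfl⟩ := hx
    rw [refl_conj]
    exact Subgroup.subset_closure ⟨g.1 v, by rw [OG_apply, hv], rfl⟩
  | one => simp
  | mul x y _ _ hx hy =>
    have : g * (x * y) * g⁻¹ = (g * x * g⁻¹) * (g * y * g⁻¹) := by group
    rw [this]
    exact Subgroup.mul_mem _ hx hy
  | inv x _ hx =>
    have : g * x⁻¹ * g⁻¹ = (g * x * g⁻¹)⁻¹ := by group
    rw [this]
    exact Subgroup.inv_mem _ hx

/-- in a finite field of odd order, one of two elements with nonsquare product lies in a given
square class -/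
theorem exists_sq_class (h2 : (2 : F) ≠ 0) {a b c : F} (ha : a ≠ 0) (hb : b ≠ 0) (hc : c ≠ 0)
    (hab : ¬ IsSquare (a * b)) : (∃ t, t ≠ 0 ∧ a = c * t ^ 2) ∨ (∃ t, t ≠ 0 ∧ b = c * t ^ 2) := by
  have key : ∀ x : F, x ≠ 0 → IsSquare (c * x) → ∃ t, t ≠ 0 ∧ x = c * t ^ 2 := by
    intro x hx ⟨r, hr⟩
    have hr0 : r ≠ 0 := by
      rintro rfl
      rw [mul_zero] at hr
      exact (mul_ne_zero hc hx) hr
    refine ⟨r / c, div_ne_zero hr0 hc, ?_⟩
    field_simp
    linear_combination hr
  by_cases h1 : IsSquare (c * a)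
  · exact Or.inl (key a ha h1)
  · right
    apply key b hb
    by_contra h3
    apply hab
    have h4 := isSquare_mul_of_not_isSquare h2 h1 h3
    have e : c * a * (c * b) = (c * c) * (a * b) := by ring
    rw [e, isSquare_mul_iff_of_isSquare ⟨c, rfl⟩ (mul_ne_zero hc hc)] at h4
    exact h4

/-- a subspace of dimension at least two on which the polar form is nondegenerate represents
every nonzero scalar -/
theorem exists_mem_Q_eq (h2 : (2 : F) ≠ 0) (X : Submodule F V)
    (hX : X ⊓ LinearMap.BilinForm.orthogonal (polarBilin Q) X = ⊥) (hd : 2 ≤ finrank F X) {c : F}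
    (hc : c ≠ 0) : ∃ x ∈ X, Q x = c := by
  obtain ⟨y₁, m₁, y₂, m₂, h1, h3, h4⟩ := exists_two_classes_sub Q X hX hd
  have h5 : ¬ IsSquare (Q y₁ * Q y₂) := by tauto
  rcases exists_sq_class h2 h1 h3 hc h5 with ⟨t, ht, hy⟩ | ⟨t, ht, hy⟩
  · refine ⟨t⁻¹ • y₁, X.smul_mem _ m₁, ?_⟩
    rw [QuadraticMap.map_smul, hy, smul_eq_mul]
    field_simp
  · refine ⟨t⁻¹ • y₂, X.smul_mem _ m₂, ?_⟩
    rw [QuadraticMap.map_smul, hy, smul_eq_mul]
    field_simp

/-- the orthogonal complement of a nondegenerate subspace of codimension at least two represents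
every nonzero scalar -/
theorem exists_mem_orthogonal_Q_eq (h2 : (2 : F) ≠ 0) (hQ : (polarBilin Q).Nondegenerate)
    (S : Submodule F V) (hS : S ⊓ LinearMap.BilinForm.orthogonal (polarBilin Q) S = ⊥)
    (hd : finrank F S + 2 ≤ finrank F V) {c : F} (hc : c ≠ 0) :
    ∃ x, (∀ s ∈ S, polar Q s x = 0) ∧ Q x = c := by
  have h4 := LinearMap.BilinForm.finrank_orthogonal hQ S
  obtain ⟨x, hx, hxc⟩ := exists_mem_Q_eq Q h2 (LinearMap.BilinForm.orthogonal (polarBilin Q) S) (by
    rw [LinearMap.BilinForm.orthogonal_orthogonal hQ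
      (LinearMap.BilinForm.isSymm_iff.2 (polarBilin_isSymm Q)).isRefl, inf_comm]
    exact hS) (by omega) hc
  exact ⟨x, hx, hxc⟩

omit [Fintype F] in
theorem eq_mul_sq_of_isSquare_mul {c x : F} (hc : c ≠ 0) (hx : x ≠ 0) (h : IsSquare (c * x)) :
    ∃ t, t ≠ 0 ∧ x = c * t ^ 2 := by
  obtain ⟨r, hr⟩ := h
  have hr0 : r ≠ 0 := by
    rintro rfl
    rw [mul_zero] at hr
    exact (mul_ne_zero hc hx) hr
  refine ⟨r / c, div_ne_zero hr0 hc, ?_⟩
  field_simp
  linear_combination hr

omit [Fintype F] [FiniteDimensional F V] in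
/-- linear algebra of a pair with nonzero discriminant -/
theorem pair_coeff_eq_zero {a : F} {u u' : V} (hu : Q u = a) (hu' : Q u' = a)
    (hd : polar Q u u' ^ 2 ≠ 4 * a ^ 2) (s t : F) (h1 : polar Q u (s • u + t • u') = 0)
    (h3 : polar Q u' (s • u + t • u') = 0) : s = 0 ∧ t = 0 := by
  rw [polar_add_right, polar_smul_right, polar_smul_right, polar_self, hu, smul_eq_mul, smul_eq_mul,
    nsmul_eq_mul] at h1
  rw [polar_add_right, polar_smul_right, polar_smul_right, polar_self, hu', polar_comm Q u' u,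
    smul_eq_mul, smul_eq_mul, nsmul_eq_mul] at h3
  push_cast at h1 h3
  have hd' : 4 * a ^ 2 - polar Q u u' ^ 2 ≠ 0 := by
    intro h
    apply hd
    linear_combination -h
  constructor
  · have : (4 * a ^ 2 - polar Q u u' ^ 2) * s = 0 := by
      linear_combination 2 * a * h1 - polar Q u u' * h3
    exact (mul_eq_zero.1 this).resolve_left hd'
  · have : (4 * a ^ 2 - polar Q u u' ^ 2) * t = 0 := by
      linear_combination 2 * a * h3 - polar Q u u' * h1
    exact (mul_eq_zero.1 this).resolve_left hd'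

/-- nondegenerate plane case -/
theorem refl_mul_refl_mem_reflSub_of_disc (h2 : (2 : F) ≠ 0) (hQ : (polarBilin Q).Nondegenerate)
    {c a : F} (hc : c ≠ 0) (ha : a ≠ 0) {u u' : V} (hu : Q u = a) (hu' : Q u' = a)
    (hd : polar Q u u' ^ 2 ≠ 4 * a ^ 2) : refl Q u * refl Q u' ∈ reflSub Q c := by
  obtain ⟨S, hS⟩ : ∃ S : Submodule F V, S = Submodule.span F (Set.range ![u, u']) := ⟨_, rfl⟩
  have huS : u ∈ S := by
    rw [hS]; exact Submodule.subset_span ⟨0, rfl⟩
  have huS' : u' ∈ S := by
    rw [hS]; exact Submodule.subset_span ⟨1, rfl⟩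
  have hli : LinearIndependent F ![u, u'] := by
    rw [LinearIndependent.pair_iff]
    intro s t hst
    apply pair_coeff_eq_zero Q hu hu' hd s t <;> rw [hst] <;> simp
  have hSfr : finrank F S = 2 := by
    rw [hS, finrank_span_eq_card hli]
    simp
  have hSnd : S ⊓ LinearMap.BilinForm.orthogonal (polarBilin Q) S = ⊥ := by
    rw [eq_bot_iff]
    rintro z ⟨hz1, hz2⟩
    rw [hS] at hz1
    obtain ⟨f, rfl⟩ := (Submodule.mem_span_range_iff_exists_fun F).1 hz1
    rw [Fin.sum_univ_two] at hz2 ⊢
    simp only [Matrix.cons_val_zero, Matrix.cons_val_one] at hz2 ⊢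
    obtain ⟨e1, e2⟩ := pair_coeff_eq_zero Q hu hu' hd (f 0) (f 1) (hz2 u huS) (hz2 u' huS')
    rw [e1, e2]
    simp
  obtain ⟨x, hxS, hx⟩ := exists_mem_Q_eq Q h2 S hSnd hSfr.ge hc
  obtain ⟨y, hy, hxy⟩ := exists_refl_eq_three Q hQ S hSfr.le x u u' hxS huS huS'
    (by rw [hx]; exact hc) (by rw [hu]; exact ha) (by rw [hu']; exact ha)
  have hsq := (reflProd_eq_reflProd Q hQ [x, u, u'] [y] (by
    intro v hv
    simp only [List.mem_cons, List.not_mem_nil, or_false] at hv
    rcases hv with rfl | rfl | rfl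
    · rw [hx]; exact hc
    · rw [hu]; exact ha
    · rw [hu']; exact ha) (by simpa using hy) (by simpa using hxy)).2
  simp only [List.map_cons, List.map_nil, List.prod_cons, List.prod_nil, mul_one, hx, hu, hu'] at hsq
  have e : c * (a * a) * Q y = (a * a) * (c * Q y) := by ring
  rw [e, isSquare_mul_iff_of_isSquare ⟨a, rfl⟩ (mul_ne_zero ha ha)] at hsq
  obtain ⟨t, ht, hyt⟩ := eq_mul_sq_of_isSquare_mul hc hy hsq
  have e2 : refl Q u * refl Q u' = refl Q x * refl Q y := by
    rw [← hxy]
    simp only [reflProd_cons, reflProd_nil, mul_one]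
    rw [← mul_assoc, refl_mul_self, one_mul]
  rw [e2]
  exact Subgroup.mul_mem _ (refl_mem_reflSub Q hx) (refl_mem_reflSub_of_sq Q ht hyt)

omit [Fintype F] [FiniteDimensional F V] in
theorem triple_coeff_eq_zero (h2 : (2 : F) ≠ 0) {a : F} (ha : a ≠ 0) {u z y : V} (hu : Q u = a)
    (hz : Q z = 0) (huz : polar Q u z = 0) (hzy : polar Q z y ≠ 0) (f : Fin 3 → F)
    (h1 : polar Q u (∑ i, f i • ![u, z, y] i) = 0) (h3 : polar Q z (∑ i, f i • ![u, z, y] i) = 0)
    (h4 : polar Q y (∑ i, f i • ![u, z, y] i) = 0) : ∀ i, f i = 0 := by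
  rw [Fin.sum_univ_three] at h1 h3 h4
  simp only [Matrix.cons_val_zero, Matrix.cons_val_one, Matrix.cons_val_two, Matrix.tail_cons,
    Matrix.head_cons] at h1 h3 h4
  simp only [polar_add_right, polar_smul_right, polar_self, hu, hz, huz, polar_comm Q z u,
    smul_eq_mul, nsmul_eq_mul, mul_zero, add_zero, zero_add] at h1 h3 h4
  push_cast at h1 h4
  have e2 : f 2 = 0 := (mul_eq_zero.1 h3).resolve_right hzy
  rw [e2] at h1 h4
  have e0 : f 0 = 0 := by
    have : f 0 * (2 * a) = 0 := by linear_combination h1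
    exact (mul_eq_zero.1 this).resolve_right (mul_ne_zero h2 ha)
  rw [e0, polar_comm Q y z] at h4
  have e1 : f 1 = 0 := by
    have : f 1 * polar Q z y = 0 := by linear_combination h4
    exact (mul_eq_zero.1 this).resolve_right hzy
  intro i
  fin_cases i
  · exact e0
  · exact e1
  · exact e2

theorem exists_not_three (h2 : (2 : F) ≠ 0) (h3 : Fintype.card F ≠ 3) :
    ∃ k : F, k ≠ 0 ∧ k ≠ 1 ∧ 2 * k ≠ 1 := by
  classical
  by_contra hcon
  push Not at hcon
  apply h3
  apply le_antisymm
  · have : (Finset.univ : Finset F) ⊆ {0, 1, 2⁻¹} := by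
      intro k _
      simp only [Finset.mem_insert, Finset.mem_singleton]
      by_cases h0 : k = 0
      · exact Or.inl h0
      · by_cases h1 : k = 1
        · exact Or.inr (Or.inl h1)
        · right; right
          have := hcon k h0 h1
          field_simp
          linear_combination this
    calc Fintype.card F = (Finset.univ : Finset F).card := rfl
      _ ≤ ({0, 1, 2⁻¹} : Finset F).card := Finset.card_le_card this
      _ ≤ 3 := Finset.card_le_three
  · have h01 : (0 : F) ≠ 1 := zero_ne_one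
    have h0m : (0 : F) ≠ -1 := by simp
    have h1m : (1 : F) ≠ -1 := by
      intro h
      apply h2
      linear_combination h
    have : ({0, 1, -1} : Finset F).card = 3 := by
      rw [Finset.card_insert_of_notMem, Finset.card_insert_of_notMem, Finset.card_singleton]
      · simpa using h1m
      · simp only [Finset.mem_insert, Finset.mem_singleton, not_or]
        exact ⟨h01, h0m⟩
    calc 3 = ({0, 1, -1} : Finset F).card := this.symm
      _ ≤ (Finset.univ : Finset F).card := Finset.card_le_card (Finset.subset_univ _)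
      _ = Fintype.card F := rfl

/-- the intermediate vector in the degenerate case -/
theorem exists_intermediate (h2 : (2 : F) ≠ 0) (hQ : (polarBilin Q).Nondegenerate)
    (H : Fintype.card F ≠ 3 ∨ 5 ≤ finrank F V ∨ finrank F V ≤ 2) {a : F} (ha : a ≠ 0) {u z : V}
    (hu : Q u = a) (hz : Q z = 0) (huz : polar Q u z = 0) (hz0 : z ≠ 0) :
    ∃ u'', Q u'' = a ∧ polar Q u u'' ^ 2 ≠ 4 * a ^ 2 ∧ polar Q u'' (u + z) ^ 2 ≠ 4 * a ^ 2 := by
  obtain ⟨y₀, hy₀⟩ := exists_polar_ne_zero Q hQ hz0
  have hli : LinearIndependent F ![u, z, y₀] := by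
    rw [Fintype.linearIndependent_iff]
    intro f hf
    apply triple_coeff_eq_zero Q h2 ha hu hz huz hy₀ f <;> rw [hf] <;> simp
  have h3n : 3 ≤ finrank F V := by
    have := hli.fintype_card_le_finrank
    simpa using this
  have h4a : (4 : F) * a ^ 2 ≠ 0 := by
    have : (4 : F) = 2 * 2 := by norm_num
    rw [this]
    exact mul_ne_zero (mul_ne_zero h2 h2) (pow_ne_zero _ ha)
  by_cases hq : Fintype.card F = 3
  · have h5 : 5 ≤ finrank F V := by
      rcases H with h | h | h
      · exact absurd hq h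
      · exact h
      · omega
    obtain ⟨S, hS⟩ : ∃ S : Submodule F V, S = Submodule.span F (Set.range ![u, z, y₀]) := ⟨_, rfl⟩
    have huS : u ∈ S := by
      rw [hS]; exact Submodule.subset_span ⟨0, rfl⟩
    have hzS : z ∈ S := by
      rw [hS]; exact Submodule.subset_span ⟨1, rfl⟩
    have hyS : y₀ ∈ S := by
      rw [hS]; exact Submodule.subset_span ⟨2, rfl⟩
    have hSfr : finrank F S = 3 := by
      rw [hS, finrank_span_eq_card hli]
      simp
    have hSnd : S ⊓ LinearMap.BilinForm.orthogonal (polarBilin Q) S = ⊥ := by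
      rw [eq_bot_iff]
      rintro x ⟨hx1, hx2⟩
      rw [hS] at hx1
      obtain ⟨f, rfl⟩ := (Submodule.mem_span_range_iff_exists_fun F).1 hx1
      have := triple_coeff_eq_zero Q h2 ha hu hz huz hy₀ f (hx2 u huS) (hx2 z hzS) (hx2 y₀ hyS)
      simp [this]
    obtain ⟨u'', hu1, hu2⟩ := exists_mem_orthogonal_Q_eq Q h2 hQ S hSnd (by omega) ha
    refine ⟨u'', hu2, ?_, ?_⟩
    · rw [hu1 u huS]
      simpa using h4a.symm
    · rw [polar_comm, polar_add_left, hu1 u huS, hu1 z hzS]
      simpa using h4a.symm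
  · obtain ⟨k, hk0, hk1, hk2⟩ := exists_not_three h2 hq
    obtain ⟨r, hr⟩ : ∃ r, r = polar Q z y₀ := ⟨_, rfl⟩
    have hr0 : r ≠ 0 := by rw [hr]; exact hy₀
    -- `y₁` with `polar u y₁ = r`
    obtain ⟨y₁, hy1u, hy1z⟩ : ∃ y₁, polar Q u y₁ = r ∧ polar Q z y₁ = r := by
      refine ⟨y₀ + ((r - polar Q u y₀) / (2 * a)) • u, ?_, ?_⟩
      · rw [polar_add_right, polar_smul_right, polar_self, hu, smul_eq_mul, nsmul_eq_mul]
        push_cast
        field_simp
        ring
      · rw [polar_add_right, polar_smul_right, polar_comm Q z u, huz, smul_zero, add_zero, hr]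
    obtain ⟨y, hyu, hyz, hyQ⟩ : ∃ y, polar Q u y = r ∧ polar Q z y = r ∧
        Q y = r ^ 2 / (4 * a * k) := by
      refine ⟨y₁ + ((r ^ 2 / (4 * a * k) - Q y₁) / r) • z, ?_, ?_, ?_⟩
      · rw [polar_add_right, polar_smul_right, huz, smul_zero, add_zero, hy1u]
      · rw [polar_add_right, polar_smul_right, polar_self, hz, smul_zero, smul_zero, add_zero, hy1z]
      · rw [Q_add_eq, QuadraticMap.map_smul, hz, smul_zero, polar_smul_right, polar_comm Q y₁ z,
          hy1z, smul_eq_mul]
        field_simp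
        ring
    have h4 : (4 : F) ≠ 0 := by
      have : (4 : F) = 2 * 2 := by norm_num
      rw [this]
      exact mul_ne_zero h2 h2
    have hyQ0 : Q y ≠ 0 := by
      rw [hyQ]
      exact div_ne_zero (pow_ne_zero _ hr0) (mul_ne_zero (mul_ne_zero h4 ha) hk0)
    refine ⟨reflLin Q y u, by rw [Q_reflLin, hu], ?_, ?_⟩
    · rw [reflLin_apply, polar_sub_right, polar_smul_right, polar_self, hu, polar_comm Q y u, hyu,
        hyQ, smul_eq_mul, nsmul_eq_mul]
      push_cast
      intro h
      have e : (2 * a - (r ^ 2 / (4 * a * k))⁻¹ * r * r) = 2 * a - 4 * a * k := by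
        field_simp
      rw [e] at h
      have : 16 * a ^ 2 * (k * (k - 1)) = 0 := by linear_combination h
      have h16 : (16 : F) * a ^ 2 ≠ 0 := by
        have : (16 : F) = 4 * 4 := by norm_num
        rw [this]
        exact mul_ne_zero (mul_ne_zero h4 h4) (pow_ne_zero _ ha)
      rcases mul_eq_zero.1 ((mul_eq_zero.1 this).resolve_left h16) with h | h
      · exact hk0 h
      · exact hk1 (sub_eq_zero.1 h)
    · rw [reflLin_apply, polar_sub_left, polar_smul_left, polar_add_right, polar_add_right,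
        polar_self, hu, huz, polar_comm Q y u, hyu, polar_comm Q y z, hyz, hyQ, smul_eq_mul,
        nsmul_eq_mul]
      push_cast
      intro h
      have e : (2 * a + 0 - (r ^ 2 / (4 * a * k))⁻¹ * r * (r + r)) = 2 * a - 8 * a * k := by
        field_simp
        ring
      rw [e] at h
      have : 32 * a ^ 2 * (k * (2 * k - 1)) = 0 := by linear_combination h
      have h32 : (32 : F) * a ^ 2 ≠ 0 := by
        have : (32 : F) = 4 * 4 * 2 := by norm_num
        rw [this]
        exact mul_ne_zero (mul_ne_zero (mul_ne_zero h4 h4) h2) (pow_ne_zero _ ha)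
      rcases mul_eq_zero.1 ((mul_eq_zero.1 this).resolve_left h32) with h | h
      · exact hk0 h
      · exact hk2 (sub_eq_zero.1 h)

/-- all reflections in vectors of a given norm are congruent modulo the subgroup generated by the
reflections of norm `c` -/
theorem refl_mul_refl_mem_reflSub (h2 : (2 : F) ≠ 0) (hQ : (polarBilin Q).Nondegenerate)
    (H : Fintype.card F ≠ 3 ∨ 5 ≤ finrank F V ∨ finrank F V ≤ 2) {c a : F} (hc : c ≠ 0)
    (ha : a ≠ 0) {u u' : V} (hu : Q u = a) (hu' : Q u' = a) :
    refl Q u * refl Q u' ∈ reflSub Q c := by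
  have key : ∀ u' : V, Q u' = a → polar Q u u' = 2 * a → refl Q u * refl Q u' ∈ reflSub Q c := by
    intro u' hu' hB
    by_cases hz0 : u' - u = 0
    · rw [sub_eq_zero.1 hz0, refl_mul_self]
      exact Subgroup.one_mem _
    · have hz : Q (u' - u) = 0 := by
        have := Q_sub_smul Q u' u 1
        simp only [one_smul, one_pow, one_mul] at this
        rw [this, hu, hu', hB]; ring
      have huz : polar Q u (u' - u) = 0 := by
        rw [polar_sub_right, hB, polar_self, hu, nsmul_eq_mul]
        push_cast; ring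
      obtain ⟨u'', h1, h3, h4⟩ := exists_intermediate Q h2 hQ H ha hu hz huz hz0
      rw [add_sub_cancel] at h4
      have e : refl Q u * refl Q u' = (refl Q u * refl Q u'') * (refl Q u'' * refl Q u') := by
        rw [mul_assoc, ← mul_assoc (refl Q u''), refl_mul_self, one_mul]
      rw [e]
      exact Subgroup.mul_mem _ (refl_mul_refl_mem_reflSub_of_disc Q h2 hQ hc ha hu h1 h3)
        (refl_mul_refl_mem_reflSub_of_disc Q h2 hQ hc ha h1 hu' h4)
  by_cases hd : polar Q u u' ^ 2 = 4 * a ^ 2
  · have : (polar Q u u' - 2 * a) * (polar Q u u' + 2 * a) = 0 := by linear_combination hd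
    rcases mul_eq_zero.1 this with h | h
    · exact key u' hu' (by linear_combination h)
    · have := key (-u') (by rw [QuadraticMap.map_neg, hu']) (by
        rw [polar_neg_right]; linear_combination -h)
      have e : -u' = (-1 : F) • u' := by simp
      rwa [e, refl_smul Q u' (neg_ne_zero.2 one_ne_zero)] at this
  · exact refl_mul_refl_mem_reflSub_of_disc Q h2 hQ hc ha hu hu' hd

end Cls

end Cfsg.Agent.Lib.Helper49
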