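import Mathlib
import Cfsg.Agent.Lib.Helper49.ReflClass

set_option autoImplicit false

namespace Cfsg.Agent.Lib.Helper49

open QuadraticMap Module

section Idx

variable {F V : Type*} [Field F] [Fintype F] [AddCommGroup V] [Module F V] [FiniteDimensional F V]
  (Q : QuadraticForm F V)

omit [Fintype F] [FiniteDimensional F V] in
theorem exists_list_of_mem_reflSub {c : F} {g : OG Q} (hg : g ∈ reflSub Q c) :
    ∃ vs : List V, (∀ v ∈ vs, Q v = c) ∧ g = reflProd Q vs := by
  unfold reflSub at hg
  induction hg using Subgroup.closure_induction with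
  | mem x hx =>
    obtain ⟨v, hv, rfl⟩ := hx
    exact ⟨[v], by simpa using hv, by simp⟩
  | one => exact ⟨[], by simp, by simp⟩
  | mul x y _ _ hx hy =>
    obtain ⟨vs, h1, rfl⟩ := hx
    obtain ⟨ws, h3, rfl⟩ := hy
    refine ⟨vs ++ ws, ?_, by simp⟩
    intro v hv
    rcases List.mem_append.1 hv with h | h
    · exact h1 v h
    · exact h3 v h
  | inv x _ hx =>
    obtain ⟨vs, h1, rfl⟩ := hx
    exact ⟨vs.reverse, fun v hv => h1 v (List.mem_reverse.1 hv), (reflProd_reverse Q vs).symm⟩

omit [Fintype F] in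
theorem refl_notMem_reflSub (hQ : (polarBilin Q).Nondegenerate) {c : F} (hc : c ≠ 0) {a₀ : V}
    (ha₀ : Q a₀ ≠ 0) (hns : ¬ IsSquare (c * Q a₀)) : refl Q a₀ ∉ reflSub Q c := by
  intro hmem
  obtain ⟨vs, hvs, hg⟩ := exists_list_of_mem_reflSub Q hmem
  obtain ⟨e1, e2⟩ := reflProd_eq_reflProd Q hQ [a₀] vs (by simpa using ha₀)
    (fun v hv => by rw [hvs v hv]; exact hc) (by simpa using hg)
  have hprod : (vs.map Q).prod = c ^ vs.length := by
    have : vs.map Q = List.replicate vs.length c := by
      rw [List.eq_replicate_iff]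
      refine ⟨by simp, ?_⟩
      intro b hb
      obtain ⟨v, hv, rfl⟩ := List.mem_map.1 hb
      exact hvs v hv
    rw [this, List.prod_replicate]
  simp only [List.length_cons, List.length_nil, List.map_cons, List.map_nil, List.prod_cons,
    List.prod_nil, mul_one, zero_add] at e1 e2
  rw [hprod] at e2
  have hodd : Odd vs.length := by
    rw [add_comm, Nat.even_add_one, Nat.not_even_iff_odd] at e1
    exact e1
  obtain ⟨k, hk⟩ := hodd
  rw [hk, pow_succ, pow_mul] at e2
  apply hns
  have e : Q a₀ * ((c ^ 2) ^ k * c) = (c ^ k * c ^ k) * (c * Q a₀) := by ring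
  rw [e, isSquare_mul_iff_of_isSquare ⟨c ^ k, rfl⟩
    (mul_ne_zero (pow_ne_zero _ hc) (pow_ne_zero _ hc))] at e2
  exact e2

theorem index_reflSub (h2 : (2 : F) ≠ 0) (hQ : (polarBilin Q).Nondegenerate)
    (H : Fintype.card F ≠ 3 ∨ 5 ≤ finrank F V ∨ finrank F V ≤ 2) (hn : 2 ≤ finrank F V) {c : F}
    (hc : c ≠ 0) : (reflSub Q c).index = 2 := by
  have hN := reflSub_normal Q c
  obtain ⟨a₀, ha₀, hns⟩ : ∃ a₀, Q a₀ ≠ 0 ∧ ¬ IsSquare (c * Q a₀) := by
    obtain ⟨y₁, y₂, h1, h3, h4⟩ := exists_two_classes Q hQ hn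
    have h5 : ¬ IsSquare (Q y₁ * Q y₂) := by tauto
    by_cases h6 : IsSquare (c * Q y₁)
    · refine ⟨y₂, h3, fun h7 => h5 ?_⟩
      have h8 := h6.mul h7
      have e : c * Q y₁ * (c * Q y₂) = (c * c) * (Q y₁ * Q y₂) := by ring
      rwa [e, isSquare_mul_iff_of_isSquare ⟨c, rfl⟩ (mul_ne_zero hc hc)] at h8
    · exact ⟨y₁, h1, h6⟩
  have hnot := refl_notMem_reflSub Q hQ hc ha₀ hns
  have hor : ∀ b : OG Q, b ∈ reflSub Q c ∨ b * refl Q a₀ ∈ reflSub Q c := by
    intro b
    obtain ⟨vs, hvs, rfl⟩ := exists_reflProd_eq Q h2 hQ b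
    induction vs with
    | nil => left; simp
    | cons v vs ih =>
      have ih' := ih (fun z hz => hvs z (List.mem_cons_of_mem _ hz))
      have hv := hvs v List.mem_cons_self
      rw [reflProd_cons]
      by_cases h6 : IsSquare (c * Q v)
      · obtain ⟨t, ht, hvt⟩ := eq_mul_sq_of_isSquare_mul hc hv h6
        have hm := refl_mem_reflSub_of_sq Q ht hvt
        rcases ih' with h | h
        · exact Or.inl (Subgroup.mul_mem _ hm h)
        · right
          rw [mul_assoc]
          exact Subgroup.mul_mem _ hm h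
      · have h7 : IsSquare (Q a₀ * Q v) := by
          have h8 := isSquare_mul_of_not_isSquare h2 hns h6
          have e : c * Q a₀ * (c * Q v) = (c * c) * (Q a₀ * Q v) := by ring
          rwa [e, isSquare_mul_iff_of_isSquare ⟨c, rfl⟩ (mul_ne_zero hc hc)] at h8
        obtain ⟨t, ht, hvt⟩ := eq_mul_sq_of_isSquare_mul ha₀ hv h7
        have hm : refl Q v * refl Q a₀ ∈ reflSub Q c := by
          rw [← refl_smul Q v (inv_ne_zero ht)]
          apply refl_mul_refl_mem_reflSub Q h2 hQ H hc ha₀ _ rfl
          rw [QuadraticMap.map_smul, hvt, smul_eq_mul]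
          field_simp
        rcases ih' with h | h
        · right
          have e : refl Q v * reflProd Q vs * refl Q a₀ =
              (refl Q v * refl Q a₀) * (refl Q a₀ * reflProd Q vs * (refl Q a₀)⁻¹) := by
            rw [refl_inv]
            calc refl Q v * reflProd Q vs * refl Q a₀
                = refl Q v * (refl Q a₀ * refl Q a₀) * reflProd Q vs * refl Q a₀ := by
                  rw [refl_mul_self, mul_one]
              _ = _ := by group
          rw [e]
          exact Subgroup.mul_mem _ hm (hN.conj_mem _ h _)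
        · left
          have e : refl Q v * reflProd Q vs =
              (refl Q v * refl Q a₀) * (refl Q a₀ * (reflProd Q vs * refl Q a₀) * (refl Q a₀)⁻¹) := by
            rw [refl_inv]
            calc refl Q v * reflProd Q vs
                = refl Q v * (refl Q a₀ * refl Q a₀) * reflProd Q vs * (refl Q a₀ * refl Q a₀) := by
                  rw [refl_mul_self, mul_one, mul_one]
              _ = _ := by group
          rw [e]
          exact Subgroup.mul_mem _ hm (hN.conj_mem _ h _)
  rw [Subgroup.index_eq_two_iff]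
  refine ⟨refl Q a₀, fun b => ?_⟩
  by_cases hb : b ∈ reflSub Q c
  · refine Or.inr ⟨hb, fun hba => hnot ?_⟩
    have := Subgroup.mul_mem _ (Subgroup.inv_mem _ hb) hba
    rwa [inv_mul_cancel_left] at this
  · exact Or.inl ⟨(hor b).resolve_left hb, hb⟩

end Idx

end Cfsg.Agent.Lib.Helper49
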