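import Mathlib
import Cfsg.Agent.Lib.Helper49.OmegaCrit
import Cfsg.Agent.Lib.Helper49.PlusParity
import Cfsg.Agent.S0788

set_option autoImplicit false

namespace Cfsg.Agent.Lib.Helper49

open Matrix QuadraticMap Module
open scoped commutatorElement

section Grp

variable {G : Type*} [Group G]

theorem commutator_le_of_closure (N : Subgroup G) [N.Normal] (R : Set G)
    (hgen : Subgroup.closure R = ⊤) (h : ∀ r ∈ R, ∀ s ∈ R, ⁅r, s⁆ ∈ N) : commutator G ≤ N := by
  have h0 : ∀ r ∈ R, ∀ s ∈ R, Commute (QuotientGroup.mk' N r) (QuotientGroup.mk' N s) := by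
    intro r hr s hs
    rw [← commutatorElement_eq_one_iff_commute, ← map_commutatorElement]
    exact (QuotientGroup.eq_one_iff _).2 (h r hr s hs)
  have h1 : ∀ a : G, ∀ s ∈ R, Commute (QuotientGroup.mk' N a) (QuotientGroup.mk' N s) := by
    intro a s hs
    have ha : a ∈ Subgroup.closure R := hgen ▸ Subgroup.mem_top a
    induction ha using Subgroup.closure_induction with
    | mem x hx => exact h0 x hx s hs
    | one => simp
    | mul x y _ _ hx hy => rw [map_mul]; exact hx.mul_left hy
    | inv x _ hx => rw [map_inv]; exact hx.inv_left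
  have h2 : ∀ a b : G, Commute (QuotientGroup.mk' N a) (QuotientGroup.mk' N b) := by
    intro a b
    have hb : b ∈ Subgroup.closure R := hgen ▸ Subgroup.mem_top b
    induction hb using Subgroup.closure_induction with
    | mem x hx => exact h1 a x hx
    | one => simp
    | mul x y _ _ hx hy => rw [map_mul]; exact hx.mul_right hy
    | inv x _ hx => rw [map_inv]; exact hx.inv_right
  rw [commutator_def, Subgroup.commutator_le]
  intro a _ b _
  rw [← QuotientGroup.eq_one_iff, ← QuotientGroup.mk'_apply, map_commutatorElement,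
    commutatorElement_eq_one_iff_commute]
  exact h2 a b

/-- if `G` is generated by involutions whose pairwise products lie in the normal subgroup `S`,
every subgroup of index two of `S` contains the commutator subgroup of `G` -/
theorem commutator_subgroupOf_le_of_index_two (S : Subgroup G) [S.Normal] (R : Set G)
    (hgen : Subgroup.closure R = ⊤) (hinv : ∀ r ∈ R, r * r = 1) (hRS : ∀ r ∈ R, ∀ s ∈ R, r * s ∈ S)
    (H : Subgroup S) (hH : H.index = 2) : (commutator G).subgroupOf S ≤ H := by
  have hle : Subgroup.normalClosure {x : G | ∃ g ∈ S, x = g * g} ≤ H.map S.subtype := by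
    unfold Subgroup.normalClosure
    rw [Subgroup.closure_le]
    intro y hy
    obtain ⟨x, ⟨g, hg, rfl⟩, hxy⟩ := Group.mem_conjugatesOfSet_iff.1 hy
    obtain ⟨c, hc⟩ := isConj_iff.1 hxy
    have hcg : c * g * c⁻¹ ∈ S := Subgroup.Normal.conj_mem inferInstance g hg c
    refine ⟨⟨c * g * c⁻¹, hcg⟩ * ⟨c * g * c⁻¹, hcg⟩, ?_, ?_⟩
    · exact Subgroup.mul_self_mem_of_index_two hH _
    · simp only [Subgroup.subtype_apply, Subgroup.coe_mul]
      rw [← hc]; group
  have h1 : commutator G ≤ Subgroup.normalClosure {x : G | ∃ g ∈ S, x = g * g} := by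
    apply commutator_le_of_closure _ R hgen
    intro r hr s hs
    apply Subgroup.subset_normalClosure
    refine ⟨r * s, hRS r hr s hs, ?_⟩
    have hr' : r⁻¹ = r := inv_eq_of_mul_eq_one_left (hinv r hr)
    have hs' : s⁻¹ = s := inv_eq_of_mul_eq_one_left (hinv s hs)
    rw [commutatorElement_def, hr', hs']
    group
  intro x hx
  obtain ⟨y, hy, hyx⟩ := hle (h1 (Subgroup.mem_subgroupOf.1 hx))
  have : y = x := Subtype.ext hyx
  rwa [← this]

theorem existsUnique_index_two (S : Subgroup G) [S.Normal] (R : Set G)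
    (hgen : Subgroup.closure R = ⊤) (hinv : ∀ r ∈ R, r * r = 1) (hRS : ∀ r ∈ R, ∀ s ∈ R, r * s ∈ S)
    (hidx : ((commutator G).subgroupOf S).index = 2) : ∃! H : Subgroup S, H.index = 2 := by
  refine ⟨(commutator G).subgroupOf S, hidx, ?_⟩
  intro H hH
  have hle := commutator_subgroupOf_le_of_index_two S R hgen hinv hRS H hH
  have h1 := Subgroup.relIndex_mul_index hle
  rw [hidx, hH] at h1
  have h2 : ((commutator G).subgroupOf S).relIndex H = 1 := by omega
  exact le_antisymm (Subgroup.relIndex_eq_one.1 h2) hle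

end Grp

section Mat

variable {ι : Type} [Fintype ι] [DecidableEq ι] {F : Type*} [Field F]
variable (Q : QuadraticForm F (ι → F))

theorem mem_specialIsometryGroup_iff (g : ↥(Cfsg.isometryGroup F ⇑Q)) :
    g ∈ Cfsg.specialIsometryGroup F ⇑Q ↔
      ((g : Matrix.GeneralLinearGroup ι F) : Matrix ι ι F).det = 1 := by
  unfold Cfsg.specialIsometryGroup
  rw [MonoidHom.mem_ker, MonoidHom.comp_apply, Units.ext_iff]
  rfl

theorem specialIsometryGroup_normal : (Cfsg.specialIsometryGroup F ⇑Q).Normal := by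
  unfold Cfsg.specialIsometryGroup
  infer_instance

theorem Omega_le_specialIsometryGroup : Cfsg.Omega F ⇑Q ≤ Cfsg.specialIsometryGroup F ⇑Q := by
  unfold Cfsg.specialIsometryGroup
  exact Abelianization.commutator_subset_ker _

omit [Fintype ι] [DecidableEq ι] in
theorem exists_Q_ne_zero [Nonempty ι] (hQ : (polarBilin Q).Nondegenerate) : ∃ v, Q v ≠ 0 := by
  by_contra hcon
  push Not at hcon
  have h1 : (fun _ : ι => (1 : F)) = 0 := by
    apply hQ.1
    intro y
    simp [polar, hcon]
  exact one_ne_zero (congrFun h1 (Classical.arbitrary ι))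

variable [Fintype F]

theorem det_eq_one_or (hQ : (polarBilin Q).Nondegenerate)
    (h : Fintype.card F ≠ 2 ∨ Fintype.card ι ≠ 4) (g : ↥(Cfsg.isometryGroup F ⇑Q)) :
    ((g : Matrix.GeneralLinearGroup ι F) : Matrix ι ι F).det = 1 ∨
      ((g : Matrix.GeneralLinearGroup ι F) : Matrix ι ι F).det = -1 := by
  obtain ⟨vs, hvs, hg⟩ := exists_isoEquiv_eq_reflProd Q hQ h g
  rw [det_of_isoEquiv_eq_reflProd Q g vs hvs hg]
  exact neg_one_pow_eq_or F _

theorem index_specialIsometryGroup [Nonempty ι] (h2 : (2 : F) ≠ 0)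
    (hQ : (polarBilin Q).Nondegenerate) : (Cfsg.specialIsometryGroup F ⇑Q).index = 2 := by
  have h : Fintype.card F ≠ 2 ∨ Fintype.card ι ≠ 4 := by
    left
    intro hc
    apply h2
    have := Nat.cast_card_eq_zero F
    rw [hc] at this
    exact_mod_cast this
  obtain ⟨v, hv⟩ := exists_Q_ne_zero Q hQ
  have hne : (-1 : F) ≠ 1 := by
    intro h
    apply h2
    linear_combination -h
  rw [Subgroup.index_eq_two_iff]
  refine ⟨(isoEquiv Q).symm (refl Q v), fun b => ?_⟩
  rw [mem_specialIsometryGroup_iff, mem_specialIsometryGroup_iff]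
  have hd : (((b * (isoEquiv Q).symm (refl Q v) : ↥(Cfsg.isometryGroup F ⇑Q)) :
      Matrix.GeneralLinearGroup ι F) : Matrix ι ι F).det =
      - ((b : Matrix.GeneralLinearGroup ι F) : Matrix ι ι F).det := by
    rw [Subgroup.coe_mul, Units.val_mul, Matrix.det_mul, coe_isoEquiv_symm_refl,
      Cfsg.Agent.Lib.Helper17.reflectionMatrix_det Q v hv]
    ring
  rw [hd]
  rcases det_eq_one_or Q hQ h b with hb | hb
  · rw [hb]
    exact Or.inr ⟨rfl, hne⟩
  · rw [hb]
    exact Or.inl ⟨by simp, hne⟩

theorem specialIsometryGroup_eq_top (h2 : (2 : F) = 0) (hQ : (polarBilin Q).Nondegenerate)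
    (h : Fintype.card F ≠ 2 ∨ Fintype.card ι ≠ 4) : Cfsg.specialIsometryGroup F ⇑Q = ⊤ := by
  rw [eq_top_iff]
  intro g _
  rw [mem_specialIsometryGroup_iff]
  rcases det_eq_one_or Q hQ h g with hb | hb
  · exact hb
  · rw [hb]
    linear_combination -h2

end Mat

theorem existsUnique_index_two_SO {F : Type*} [Field F] [Fintype F] {n : ℕ} (hn : 2 ≤ n)
    (Q : QuadraticForm F (Fin n → F)) (hQ : (polarBilin Q).Nondegenerate)
    (h : Fintype.card F ≠ 2 ∨ n ≠ 4) :
    ∃! H : Subgroup ↥(Cfsg.specialIsometryGroup F ⇑Q), H.index = 2 := by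
  have h' : Fintype.card F ≠ 2 ∨ Fintype.card (Fin n) ≠ 4 := by simpa using h
  have : Nonempty (Fin n) := ⟨⟨0, by omega⟩⟩
  have hN := specialIsometryGroup_normal Q
  apply existsUnique_index_two (Cfsg.specialIsometryGroup F ⇑Q) _
    (closure_reflections_eq_top Q hQ h')
  · rintro r ⟨v, hv, hr⟩
    have : r = (isoEquiv Q).symm (refl Q v) := isometryGroup_ext (by rw [hr, coe_isoEquiv_symm_refl])
    rw [this, ← map_mul, refl_mul_self, map_one]
  · rintro r ⟨v, hv, hr⟩ s ⟨w, hw, hs⟩
    rw [mem_specialIsometryGroup_iff, Subgroup.coe_mul, Units.val_mul, Matrix.det_mul, hr, hs,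
      Cfsg.Agent.Lib.Helper17.reflectionMatrix_det Q v hv,
      Cfsg.Agent.Lib.Helper17.reflectionMatrix_det Q w hw]
    ring
  · have h1 := Subgroup.relIndex_mul_index (Omega_le_specialIsometryGroup Q)
    change (Cfsg.Omega F ⇑Q).relIndex (Cfsg.specialIsometryGroup F ⇑Q) = 2
    by_cases h2 : (2 : F) = 0
    · rw [specialIsometryGroup_eq_top Q h2 hQ h', Subgroup.index_top,
        index_Omega_char_two Q h2 hQ h'] at h1
      rw [specialIsometryGroup_eq_top Q h2 hQ h']
      omega
    · rw [index_specialIsometryGroup Q h2 hQ, Cfsg.Agent.S0788.result h2 hn Q hQ] at h1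
      omega

end Cfsg.Agent.Lib.Helper49
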