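import Mathlib
import Cfsg.Agent.Lib.Helper49.ReflClassIdx
import Cfsg.Agent.Lib.Helper49.UniqueIdx

set_option autoImplicit false

namespace Cfsg.Agent.Lib.Helper49

open QuadraticMap Module
open scoped commutatorElement

section

variable {F V : Type*} [Field F] [AddCommGroup V] [Module F V] (Q : QuadraticForm F V)

/-- the subgroup generated by the products of two reflections in vectors of norm `c` -/
def pairSub (c : F) : Subgroup (OG Q) :=
  Subgroup.closure {g | ∃ x y, Q x = c ∧ Q y = c ∧ g = refl Q x * refl Q y}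

theorem refl_mul_refl_mem_pairSub_of_eq {c : F} {x y : V} (hx : Q x = c) (hy : Q y = c) :
    refl Q x * refl Q y ∈ pairSub Q c :=
  Subgroup.subset_closure ⟨x, y, hx, hy, rfl⟩

theorem pairSub_normal (c : F) : (pairSub Q c).Normal := by
  refine ⟨fun n hn g => ?_⟩
  unfold pairSub at hn ⊢
  induction hn using Subgroup.closure_induction with
  | mem x hx =>
    obtain ⟨a, b, ha, hb, rfl⟩ := hx
    apply Subgroup.subset_closure
    refine ⟨g.1 a, g.1 b, by rw [OG_apply, ha], by rw [OG_apply, hb], ?_⟩
    rw [← refl_conj, ← refl_conj]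
    group
  | one => simp
  | mul x y _ _ hx hy =>
    have : g * (x * y) * g⁻¹ = (g * x * g⁻¹) * (g * y * g⁻¹) := by group
    rw [this]
    exact Subgroup.mul_mem _ hx hy
  | inv x _ hx =>
    have : g * x⁻¹ * g⁻¹ = (g * x * g⁻¹)⁻¹ := by group
    rw [this]
    exact Subgroup.inv_mem _ hx

theorem reflProd_mem_pairSub {c : F} : ∀ (k : ℕ) (vs : List V), (∀ v ∈ vs, Q v = c) →
    vs.length = 2 * k → reflProd Q vs ∈ pairSub Q c := by
  intro k
  induction k with
  | zero =>
    intro vs _ hl
    have : vs = [] := List.length_eq_zero_iff.1 (by omega)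
    rw [this]
    exact Subgroup.one_mem _
  | succ k ih =>
    intro vs hvs hl
    match vs, hvs, hl with
    | [], _, hl => simp at hl
    | [_], _, hl => simp at hl; omega
    | a :: b :: ws, hvs, hl =>
      rw [reflProd_cons, reflProd_cons, ← mul_assoc]
      apply Subgroup.mul_mem
      · exact refl_mul_refl_mem_pairSub_of_eq Q (hvs a (by simp)) (hvs b (by simp))
      · apply ih ws (fun v hv => hvs v (by simp [hv]))
        simp at hl
        omega

end

section

variable {F V : Type*} [Field F] [Fintype F] [AddCommGroup V] [Module F V] [FiniteDimensional F V]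
  (Q : QuadraticForm F V)

/-- products of two reflections in vectors of the same norm lie in `pairSub Q c` -/
theorem refl_mul_refl_mem_pairSub (hQ : (polarBilin Q).Nondegenerate)
    (H : Fintype.card F ≠ 3 ∨ 5 ≤ finrank F V ∨ finrank F V ≤ 2) {c a : F} (hc : c ≠ 0)
    (ha : a ≠ 0) {u u' : V} (hu : Q u = a) (hu' : Q u' = a) :
    refl Q u * refl Q u' ∈ pairSub Q c := by
  by_cases hsq : IsSquare (c * a)
  · obtain ⟨t, ht, hat⟩ := eq_mul_sq_of_isSquare_mul hc ha hsq
    rw [← refl_smul Q u (inv_ne_zero ht), ← refl_smul Q u' (inv_ne_zero ht)]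
    apply refl_mul_refl_mem_pairSub_of_eq
    · rw [QuadraticMap.map_smul, hu, hat, smul_eq_mul]; field_simp
    · rw [QuadraticMap.map_smul, hu', hat, smul_eq_mul]; field_simp
  · have h2 : (2 : F) ≠ 0 := by
      intro h2
      apply hsq
      have : CharP F 2 := CharTwo.of_one_ne_zero_of_two_eq_zero one_ne_zero h2
      exact FiniteField.isSquare_of_char_two (ringChar.eq F 2) _
    have h1 := refl_mul_refl_mem_reflSub Q h2 hQ H hc ha hu hu'
    obtain ⟨vs, hvs, hg⟩ := exists_list_of_mem_reflSub Q h1
    obtain ⟨e1, -⟩ := reflProd_eq_reflProd Q hQ [u, u'] vs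
      (by
        intro v hv
        simp only [List.mem_cons, List.not_mem_nil, or_false] at hv
        rcases hv with rfl | rfl
        · rw [hu]; exact ha
        · rw [hu']; exact ha)
      (fun v hv => by rw [hvs v hv]; exact hc) (by simpa using hg)
    have e2 : Even vs.length := by
      simp only [List.length_cons, List.length_nil] at e1
      rw [Nat.even_add] at e1
      exact e1.1 (by decide)
    obtain ⟨k, hk⟩ := e2
    rw [hg]
    exact reflProd_mem_pairSub Q k vs hvs (by omega)

/-- the commutator subgroup is generated by the products of two reflections of norm `c` -/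
theorem commutator_le_pairSub (hQ : (polarBilin Q).Nondegenerate) (hd : 5 ≤ finrank F V) {c : F}
    (hc : c ≠ 0) : commutator (OG Q) ≤ pairSub Q c := by
  have := pairSub_normal Q c
  apply commutator_le_of_closure (pairSub Q c) {g | ∃ v, Q v ≠ 0 ∧ g = refl Q v}
  · rw [eq_top_iff]
    intro g _
    obtain ⟨vs, hvs, rfl⟩ := exists_reflProd_eq_finite Q hQ (Or.inr (by omega)) g
    unfold reflProd
    apply Subgroup.list_prod_mem
    intro x hx
    obtain ⟨v, hv, rfl⟩ := List.mem_map.1 hx
    exact Subgroup.subset_closure ⟨v, hvs v hv, rfl⟩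
  · rintro _ ⟨u, hu, rfl⟩ _ ⟨v, hv, rfl⟩
    rw [commutatorElement_def, refl_conj, refl_inv]
    exact refl_mul_refl_mem_pairSub Q hQ (Or.inr (Or.inl hd)) hc hv (OG_apply Q _ _) rfl

end

end Cfsg.Agent.Lib.Helper49
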