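import Mathlib
import Cfsg.Agent.Lib.Helper49.OmegaTrans
import Cfsg.Agent.Lib.Helper49.PlusParity

set_option autoImplicit false

namespace Cfsg.Agent.Lib.Helper49

open Matrix QuadraticMap Module

section T

variable {F V : Type*} [Field F] [Fintype F] [AddCommGroup V] [Module F V] [FiniteDimensional F V]
  (Q : QuadraticForm F V)

omit [Fintype F] [FiniteDimensional F V] in
theorem map_eq_of_forall (g : OG Q) (U W : Submodule F V) (e : U ≃ₗ[F] W)
    (hg : ∀ x : U, g.1 (x : V) = (e x : V)) : U.map (g.1 : V →ₗ[F] V) = W := by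
  ext y
  constructor
  · rintro ⟨x, hx, rfl⟩
    have := hg ⟨x, hx⟩
    simp only [LinearEquiv.coe_coe]
    simp only at this
    rw [this]
    exact (e ⟨x, hx⟩).2
  · intro hy
    refine ⟨e.symm ⟨y, hy⟩, (e.symm ⟨y, hy⟩).2, ?_⟩
    simp only [LinearEquiv.coe_coe]
    rw [hg, LinearEquiv.apply_symm_apply]

omit [Fintype F] [FiniteDimensional F V] in
theorem map_mul_of_mem_stabSub (g k : OG Q) (U W : Submodule F V) (hk : k ∈ stabSub Q U)
    (hg : U.map (g.1 : V →ₗ[F] V) = W) : U.map ((g * k).1 : V →ₗ[F] V) = W := by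
  have : ((g * k).1 : V →ₗ[F] V) = (g.1 : V →ₗ[F] V).comp (k.1 : V →ₗ[F] V) := rfl
  rw [this, Submodule.map_comp, (mem_stabSub Q).1 hk, hg]

/-- the commutator subgroup is transitive on nondegenerate subspaces of given isometry type -/
theorem exists_commutator_map_of_nondeg (hQ : (polarBilin Q).Nondegenerate)
    (h : Fintype.card F ≠ 2 ∨ finrank F V ≠ 4) (hn : 3 ≤ finrank F V) (U W : Submodule F V)
    (hU : U ⊓ LinearMap.BilinForm.orthogonal (polarBilin Q) U = ⊥) (e : U ≃ₗ[F] W)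
    (he : ∀ u : U, Q (e u : V) = Q (u : V)) :
    ∃ g ∈ commutator (OG Q), U.map (g.1 : V →ₗ[F] V) = W := by
  obtain ⟨g₀, hg₀⟩ := witt_OG Q hQ U W e he
  have hmap := map_eq_of_forall Q g₀ U W e hg₀
  have hfr := LinearMap.BilinForm.finrank_orthogonal hQ U
  have hle := Submodule.finrank_le U
  obtain ⟨y₁, y₂, hy₁, hy₂, hs, hm₁, hm₂⟩ : ∃ y₁ y₂ : V, Q y₁ ≠ 0 ∧ Q y₂ ≠ 0 ∧
      ((2 : F) = 0 ∨ ¬ IsSquare (Q y₁ * Q y₂)) ∧ refl Q y₁ ∈ stabSub Q U ∧
      refl Q y₂ ∈ stabSub Q U := by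
    by_cases hd : 2 ≤ finrank F U
    · obtain ⟨y₁, m₁, y₂, m₂, h1, h2, h3⟩ := exists_two_classes_sub Q U hU hd
      exact ⟨y₁, y₂, h1, h2, h3, refl_mem_stabSub_of_mem Q m₁, refl_mem_stabSub_of_mem Q m₂⟩
    · obtain ⟨y₁, m₁, y₂, m₂, h1, h2, h3⟩ := exists_two_classes_sub Q
        (LinearMap.BilinForm.orthogonal (polarBilin Q) U) (by
          rw [LinearMap.BilinForm.orthogonal_orthogonal hQ
            (LinearMap.BilinForm.isSymm_iff.2 (polarBilin_isSymm Q)).isRefl, inf_comm]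
          exact hU) (by omega)
      refine ⟨y₁, y₂, h1, h2, h3, refl_mem_stabSub_of_ortho Q ?_, refl_mem_stabSub_of_ortho Q ?_⟩
      · intro x hx
        rw [polar_comm]
        exact m₁ x hx
      · intro x hx
        rw [polar_comm]
        exact m₂ x hx
  obtain ⟨k, hk, hgk⟩ := exists_mul_mem_commutator Q hQ h (stabSub Q U) [y₁] [y₁, y₂]
    (by simpa using hy₁) (by simpa using hm₁) (by simp)
    (by
      intro z hz
      simp only [List.mem_cons, List.not_mem_nil, or_false] at hz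
      rcases hz with rfl | rfl
      · exact hy₁
      · exact hy₂)
    (by simpa using Subgroup.mul_mem _ hm₁ hm₂) ⟨1, rfl⟩ (by simpa using hs) g₀
  exact ⟨g₀ * k, hgk, map_mul_of_mem_stabSub Q g₀ k U W hk hmap⟩

omit [Fintype F] [FiniteDimensional F V] in
theorem reflLin_reflLin_add (z u x : V) (hz : Q z ≠ 0) (hu : Q u = 0) (hux : polar Q u x = 0)
    (hQ' : Q (z + u) ≠ 0) :
    reflLin Q z (reflLin Q (z + u) x) = x - ((Q (z + u))⁻¹ * polar Q z x) • u := by
  have e1 : Q (z + u) = Q z + polar Q z u := by rw [Q_add_eq, hu, add_zero]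
  rw [reflLin_apply Q (z + u), polar_add_left, hux, add_zero, reflLin_apply, polar_sub_right,
    polar_smul_right, polar_add_right, polar_self, nsmul_eq_mul, smul_eq_mul]
  push_cast
  have hc : (Q z)⁻¹ * (polar Q z x - (Q (z + u))⁻¹ * polar Q z x * (2 * Q z + polar Q z u)) =
      - ((Q (z + u))⁻¹ * polar Q z x) := by
    have : polar Q z u = Q (z + u) - Q z := by rw [e1]; ring
    rw [this]
    field_simp
    ring
  rw [hc, smul_add]
  module

/-- the commutator subgroup is transitive on totally singular subspaces of a given dimension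
less than half the dimension of the space -/
theorem exists_commutator_map_of_singular (hQ : (polarBilin Q).Nondegenerate)
    (h : Fintype.card F ≠ 2 ∨ finrank F V ≠ 4) (U W : Submodule F V)
    (hk : 2 * finrank F U < finrank F V) (hUW : finrank F U = finrank F W)
    (hU0 : ∀ u ∈ U, Q u = 0) (hW0 : ∀ w ∈ W, Q w = 0) :
    ∃ g ∈ commutator (OG Q), U.map (g.1 : V →ₗ[F] V) = W := by
  obtain ⟨g₀, hg₀⟩ := witt_OG Q hQ U W (LinearEquiv.ofFinrankEq U W hUW) (by
    intro x
    rw [hU0 _ x.2, hW0 _ (Subtype.property _)])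
  have hmap := map_eq_of_forall Q g₀ U W _ hg₀
  by_cases hbot : U = ⊥
  · refine ⟨1, Subgroup.one_mem _, ?_⟩
    rw [← hmap, hbot]
    simp
  obtain ⟨e₀, he₀, he₀0⟩ := Submodule.exists_mem_ne_zero_of_ne_bot hbot
  -- a nonsingular vector orthogonal to `U`
  have hfr := LinearMap.BilinForm.finrank_orthogonal hQ U
  obtain ⟨y, hyU, hy⟩ : ∃ y ∈ LinearMap.BilinForm.orthogonal (polarBilin Q) U, Q y ≠ 0 := by
    by_contra hcon
    push Not at hcon
    have := two_mul_finrank_le_of_le_orthogonal Q hQ _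
      (fun a ha b hb => polar_eq_zero_of_singular hcon ha hb)
    omega
  have hm₁ : refl Q y ∈ stabSub Q U := by
    apply refl_mem_stabSub_of_ortho
    intro x hx
    rw [polar_comm]
    exact hyU x hx
  obtain ⟨ys₂, h21, h22, h23, h24⟩ : ∃ ys₂ : List V, (∀ y ∈ ys₂, Q y ≠ 0) ∧
      reflProd Q ys₂ ∈ stabSub Q U ∧ Even ys₂.length ∧
      ((2 : F) = 0 ∨ ¬ IsSquare (ys₂.map Q).prod) := by
    by_cases h2 : (2 : F) = 0
    · exact ⟨[], by simp, by simp, by simp, Or.inl h2⟩
    · obtain ⟨δ, hδ⟩ := FiniteField.exists_nonsquare (ringChar_ne_two_of_two_ne_zero h2)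
      have hδ0 : δ ≠ 0 := by rintro rfl; exact hδ ⟨0, by simp⟩
      obtain ⟨z, hz, hze⟩ : ∃ z, Q z ≠ 0 ∧ polar Q z e₀ ≠ 0 := by
        obtain ⟨z₀, hz₀⟩ := exists_polar_ne_zero Q hQ he₀0
        rw [polar_comm] at hz₀
        by_cases hq : Q z₀ = 0
        · refine ⟨z₀ + e₀, ?_, ?_⟩
          · rw [Q_add_eq, hq, hU0 _ he₀]; simpa using hz₀
          · rw [polar_add_left, polar_eq_zero_of_singular hU0 he₀ he₀, add_zero]; exact hz₀
        · exact ⟨z₀, hq, hz₀⟩
      obtain ⟨u, hu, hQu⟩ : ∃ u ∈ U, Q (z + u) = δ * Q z := by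
        refine ⟨((δ - 1) * Q z / polar Q z e₀) • e₀, U.smul_mem _ he₀, ?_⟩
        rw [Q_add_eq, hU0 _ (U.smul_mem _ he₀), polar_smul_right, smul_eq_mul]
        field_simp
        ring
      have hzu : Q (z + u) ≠ 0 := by rw [hQu]; exact mul_ne_zero hδ0 hz
      refine ⟨[z, z + u], ?_, ?_, ⟨1, rfl⟩, Or.inr ?_⟩
      · intro a ha
        simp only [List.mem_cons, List.not_mem_nil, or_false] at ha
        rcases ha with rfl | rfl
        · exact hz
        · exact hzu
      · apply mem_stabSub_of_forall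
        intro x hx
        simp only [reflProd_cons, reflProd_nil, mul_one, Subgroup.coe_mul, LinearEquiv.mul_apply,
          refl_coe_apply]
        rw [reflLin_reflLin_add Q z u x hz (hU0 u hu) (polar_eq_zero_of_singular hU0 hu hx) hzu]
        exact U.sub_mem hx (U.smul_mem _ hu)
      · simp only [List.map_cons, List.map_nil, List.prod_cons, List.prod_nil, mul_one]
        rw [hQu]
        have : Q z * (δ * Q z) = (Q z * Q z) * δ := by ring
        rw [this, isSquare_mul_iff_of_isSquare ⟨Q z, rfl⟩ (mul_ne_zero hz hz)]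
        exact hδ
  obtain ⟨k, hk', hgk⟩ := exists_mul_mem_commutator Q hQ h (stabSub Q U) [y] ys₂
    (by simpa using hy) (by simpa using hm₁) (by simp) h21 h22 h23 h24 g₀
  exact ⟨g₀ * k, hgk, map_mul_of_mem_stabSub Q g₀ k U W hk' hmap⟩

end T

section Mat

variable {ι : Type} [Fintype ι] [DecidableEq ι] {F : Type*} [Field F]
variable (Q : QuadraticForm F (ι → F))

/-- transfer of a transitivity statement to the matrix group -/
theorem exists_Omega_map_of_exists (U W : Submodule F (ι → F))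
    (h : ∃ g ∈ commutator (OG Q), U.map (g.1 : (ι → F) →ₗ[F] (ι → F)) = W) :
    ∃ g : ↥(Cfsg.isometryGroup F ⇑Q), g ∈ Cfsg.Omega F ⇑Q ∧
      U.map (Matrix.mulVecLin ((g : Matrix.GeneralLinearGroup ι F) : Matrix ι ι F)) = W := by
  obtain ⟨g, hg, hmap⟩ := h
  refine ⟨(isoEquiv Q).symm g, ?_, ?_⟩
  · rw [mem_Omega_iff, MulEquiv.apply_symm_apply]
    exact hg
  · rw [mulVecLin_eq_isoEquiv, MulEquiv.apply_symm_apply]
    exact hmap

end Mat

end Cfsg.Agent.Lib.Helper49
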