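import Mathlib
import Cfsg.Agent.Lib.Helper49.WittOmega
import Cfsg.Agent.Lib.Helper49.GenPairs
import Cfsg.Agent.Lib.Helper49.OmegaTrans2

set_option autoImplicit false

namespace Cfsg.Agent.Lib.Helper49

open QuadraticMap Module

section

variable {F V : Type*} [Field F] [AddCommGroup V] [Module F V] (Q : QuadraticForm F V)

/-- the Siegel transformation `r_a r_{a+s}` -/
theorem siegel_apply {a s : V} (ha : Q a = 1) (hs : Q s = 0) (has : polar Q a s = 0) (v : V) :
    reflLin Q a (reflLin Q (a + s) v) =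
      v + polar Q s v • a - (polar Q a v + polar Q s v) • s := by
  have h1 : Q (a + s) = 1 := by rw [Q_add_eq, ha, hs, has]; ring
  have h2 : polar Q a a = 2 := by rw [polar_self, ha]; simp
  rw [reflLin_apply Q (a + s), h1, reflLin_apply, ha, polar_sub_right, polar_smul_right,
    polar_add_left, polar_add_right, h2, has]
  simp only [inv_one, one_mul, smul_eq_mul, add_zero]
  module

theorem conj_refl_mul_refl (g : OG Q) (x y : V) :
    g * (refl Q x * refl Q y) * g⁻¹ = refl Q (g.1 x) * refl Q (g.1 y) := by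
  rw [← refl_conj, ← refl_conj]
  group

theorem linearIndependent_pair_of_polar {x y f : V} (hx : x ≠ 0) (hxf : polar Q x f = 0)
    (hyf : polar Q y f = 1) : LinearIndependent F ![x, y] := by
  rw [LinearIndependent.pair_iff]
  intro s t h
  have h1 : polar Q (s • x + t • y) f = 0 := by rw [h]; simp
  rw [polar_add_left, polar_smul_left, polar_smul_left, hxf, hyf] at h1
  have ht : t = 0 := by simpa using h1
  rw [ht, zero_smul, add_zero] at h
  exact ⟨(smul_eq_zero.1 h).resolve_right hx, ht⟩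

end

section

variable {F V : Type*} [Field F] [Fintype F] [AddCommGroup V] [Module F V] [FiniteDimensional F V]
  (Q : QuadraticForm F V)

omit [Fintype F] [FiniteDimensional F V] in
theorem top_inf_orthogonal_top (hQ : (polarBilin Q).Nondegenerate) :
    (⊤ : Submodule F V) ⊓ LinearMap.BilinForm.orthogonal (polarBilin Q) ⊤ = ⊥ := by
  rw [eq_bot_iff]
  rintro y ⟨-, hy⟩
  rw [Submodule.mem_bot]
  apply hQ.1
  intro v
  change polar Q y v = 0
  rw [polar_comm]
  exact hy v trivial

/-- whole space version of `exists_fix_norm` -/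
theorem exists_fix_norm2 (hQ : (polarBilin Q).Nondegenerate) (hd : 7 ≤ finrank F V)
    (x y u₀ : V) (c : F) :
    ∃ u f, Q u = c ∧ polar Q x u = polar Q x u₀ ∧ polar Q y u = polar Q y u₀ ∧
      polar Q x f = 0 ∧ polar Q y f = 0 ∧ polar Q u f = 1 := by
  obtain ⟨u, -, f, -, h⟩ := exists_fix_norm Q ⊤ (top_inf_orthogonal_top Q hQ)
    (by rw [finrank_top]; exact hd) x y (u₀ := u₀) trivial c
  exact ⟨u, f, h⟩

/-- a vector of prescribed norm not orthogonal to two given nonzero vectors -/
theorem exists_norm_not_ortho (hQ : (polarBilin Q).Nondegenerate) (hd : 7 ≤ finrank F V)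
    {p p' : V} (hp : p ≠ 0) (hp' : p' ≠ 0) (c : F) :
    ∃ x, Q x = c ∧ polar Q p x ≠ 0 ∧ polar Q p' x ≠ 0 := by
  obtain ⟨u₀, h1, h2⟩ : ∃ u₀, polar Q p u₀ ≠ 0 ∧ polar Q p' u₀ ≠ 0 := by
    by_cases hdep : ∃ c : F, p' = c • p
    · obtain ⟨c, rfl⟩ := hdep
      obtain ⟨u₀, hu₀⟩ := exists_polar_eq_one Q hQ hp
      refine ⟨u₀, by rw [hu₀]; exact one_ne_zero, ?_⟩
      rw [polar_smul_left, hu₀, smul_eq_mul, mul_one]
      rintro rfl
      simp at hp'
    · push Not at hdep
      obtain ⟨u₀, h1, h2⟩ := exists_dual_pair Q hQ hp hdep 1 1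
      exact ⟨u₀, by rw [h1]; exact one_ne_zero, by rw [h2]; exact one_ne_zero⟩
  obtain ⟨x, f, h3, h4, h5, -⟩ := exists_fix_norm2 Q hQ hd p p' u₀ c
  exact ⟨x, h3, by rw [h4]; exact h1, by rw [h5]; exact h2⟩

variable (N : Subgroup (OG Q))

/-- a subgroup normalised by `Ω` containing a nontrivial product of two reflections of the same
norm contains `Ω` -/
theorem commutator_le_of_pair_mem (hQ : (polarBilin Q).Nondegenerate) (hd : 7 ≤ finrank F V)
    (hN : ∀ k ∈ commutator (OG Q), ∀ n ∈ N, k * n * k⁻¹ ∈ N) {γ : F} (hγ : γ ≠ 0) {a b : V}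
    (ha : Q a = γ) (hb : Q b = γ) (hab : LinearIndependent F ![a, b])
    (hmem : refl Q a * refl Q b ∈ N) : commutator (OG Q) ≤ N := by
  have claim1 : ∀ a' b', Q a' = γ → Q b' = γ → LinearIndependent F ![a', b'] →
      polar Q a' b' = polar Q a b → refl Q a' * refl Q b' ∈ N := by
    intro a' b' ha' hb' hab' hB
    obtain ⟨k, hk, h1, h2⟩ := exists_commutator_map_pair Q hQ hd hab hab' (by rw [ha, ha'])
      (by rw [hb, hb']) hB.symm
    rw [← h1, ← h2, ← conj_refl_mul_refl]
    exact hN k hk _ hmem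
  have claim2 : ∀ x z, Q x = γ → Q z = γ → refl Q x * refl Q z ∈ N := by
    intro x z hx hz
    have hx0 : x ≠ 0 := ne_zero_of_Q_ne_zero' Q (by rw [hx]; exact hγ)
    have hz0 : z ≠ 0 := ne_zero_of_Q_ne_zero' Q (by rw [hz]; exact hγ)
    by_cases hdep : ∃ c : F, z = c • x
    · obtain ⟨c, rfl⟩ := hdep
      have hc : c ≠ 0 := by
        rintro rfl
        simp at hz0
      rw [refl_smul Q x hc, refl_mul_self]
      exact N.one_mem
    · push Not at hdep
      obtain ⟨u₀, h1, h2⟩ := exists_dual_pair Q hQ hx0 hdep (polar Q a b) (polar Q a b)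
      obtain ⟨y, f, h3, h4, h5, h6, h7, h8⟩ := exists_fix_norm2 Q hQ hd x z u₀ γ
      have e : refl Q x * refl Q z = (refl Q x * refl Q y) * (refl Q y * refl Q z) := by
        rw [mul_assoc, ← mul_assoc (refl Q y), refl_mul_self, one_mul]
      rw [e]
      apply N.mul_mem
      · exact claim1 x y hx h3 (linearIndependent_pair_of_polar Q hx0 h6 h8) (by rw [h4, h1])
      · apply claim1 y z h3 hz _ (by rw [polar_comm, h5, h2])
        have := linearIndependent_pair_of_polar Q hz0 h7 h8
        rw [LinearIndependent.pair_iff] at this ⊢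
        intro s t h
        have := this t s (by rw [add_comm]; exact h)
        exact ⟨this.2, this.1⟩
  refine le_trans (commutator_le_pairSub Q hQ (by omega) hγ) ?_
  unfold pairSub
  rw [Subgroup.closure_le]
  rintro _ ⟨x, y, hx, hy, rfl⟩
  exact claim2 x y hx hy

/-- a nontrivial element of `N` fixing pointwise a large subspace yields a reflection pair -/
theorem exists_pair_mem_of_fix (hQ : (polarBilin Q).Nondegenerate) (hd : 7 ≤ finrank F V)
    (hN : ∀ k ∈ commutator (OG Q), ∀ n ∈ N, k * n * k⁻¹ ∈ N) {h : OG Q} (hh : h ∈ N) (hne : h ≠ 1)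
    (T : Submodule F V) (hT : ∀ x ∈ T, h.1 x = x) (hdim : finrank F V + 3 ≤ 2 * finrank F T) :
    ∃ a b, Q a = 1 ∧ Q b = 1 ∧ LinearIndependent F ![a, b] ∧ refl Q a * refl Q b ∈ N := by
  obtain ⟨e, he, f, hf, h1, h2, h3⟩ := exists_hyp_pair_mem Q hQ T hdim
  obtain ⟨y, hy⟩ : ∃ y, y = e + (1 : F) • f := ⟨_, rfl⟩
  have hQy : Q y = 1 := by rw [hy]; exact Q_hyp_add Q h1 h2 h3 1
  have hyT : y ∈ T := by rw [hy]; exact T.add_mem he (T.smul_mem _ hf)
  have he0 : e ≠ 0 := by
    rintro rfl
    simp at h3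
  obtain ⟨x, hQx, hx⟩ : ∃ x, Q x = 1 ∧ ∀ c : F, h.1 x ≠ c • x := by
    by_contra hcon
    push Not at hcon
    -- the fixed space
    set Fx : Submodule F V := LinearMap.ker ((h.1 : V →ₗ[F] V) - LinearMap.id) with hFx
    have hFne : Fx ≠ ⊤ := by
      intro htop
      apply hne
      apply Subtype.ext
      ext v
      have : v ∈ Fx := by rw [htop]; trivial
      rw [hFx, LinearMap.mem_ker] at this
      simpa [sub_eq_zero] using this
    have hfin := LinearMap.BilinForm.finrank_orthogonal hQ Fx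
    have hlt : finrank F Fx < finrank F V := Submodule.finrank_lt hFne
    have hO : LinearMap.BilinForm.orthogonal (polarBilin Q) Fx ≠ ⊥ := by
      intro h0
      rw [h0, finrank_bot] at hfin
      omega
    obtain ⟨p, hp, hp0⟩ := Submodule.exists_mem_ne_zero_of_ne_bot hO
    obtain ⟨x, hQx, hpx, hex⟩ := exists_norm_not_ortho Q hQ hd hp0 he0 1
    obtain ⟨c, hc⟩ := hcon x hQx
    have h4 := OG_polar Q h e x
    rw [hT e he, hc, polar_smul_right, smul_eq_mul] at h4
    have hc1 : c = 1 := by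
      have : (c - 1) * polar Q e x = 0 := by linear_combination h4
      rcases mul_eq_zero.1 this with h | h
      · linear_combination h
      · exact absurd h hex
    rw [hc1, one_smul] at hc
    have hxF : x ∈ Fx := by
      rw [hFx, LinearMap.mem_ker]
      simp [hc]
    apply hpx
    rw [polar_comm]
    exact hp x hxF
  have hx0 : x ≠ 0 := ne_zero_of_Q_ne_zero' Q (by rw [hQx]; exact one_ne_zero)
  refine ⟨h.1 x, x, by rw [OG_apply, hQx], hQx, ?_, ?_⟩
  · rw [LinearIndependent.pair_iff]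
    intro s t hst
    have hs : s = 0 := by
      by_contra hs
      apply hx (-(s⁻¹ * t))
      have : s⁻¹ • (s • h.1 x + t • x) = 0 := by rw [hst, smul_zero]
      rw [smul_add, smul_smul, smul_smul, inv_mul_cancel₀ hs, one_smul] at this
      rw [neg_smul]
      exact eq_neg_of_add_eq_zero_left this
    rw [hs, zero_smul, zero_add] at hst
    exact ⟨hs, (smul_eq_zero.1 hst).resolve_right hx0⟩
  · have hρ : refl Q x * refl Q y ∈ commutator (OG Q) :=
      refl_mul_refl_mem_commutator_of_eq Q hQ x y (by rw [hQx]; exact one_ne_zero)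
        (by rw [hQx, hQy])
    have h5 := N.mul_mem hh (hN _ hρ _ (N.inv_mem hh))
    have e1 : h * ((refl Q x * refl Q y) * h⁻¹ * (refl Q x * refl Q y)⁻¹) =
        (h * (refl Q x * refl Q y) * h⁻¹) * (refl Q x * refl Q y)⁻¹ := by group
    rw [e1, conj_refl_mul_refl, hT y hyT, mul_inv_rev, refl_inv, refl_inv, mul_assoc,
      ← mul_assoc (refl Q y), refl_mul_self, one_mul] at h5
    exact h5

end

end Cfsg.Agent.Lib.Helper49
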