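import Mathlib
import Cfsg.Agent.Lib.Helper49.NormalOmega

set_option autoImplicit false

namespace Cfsg.Agent.Lib.Helper49

open QuadraticMap Module

section

variable {F V : Type*} [Field F] [Fintype F] [AddCommGroup V] [Module F V] [FiniteDimensional F V]
  (Q : QuadraticForm F V)

/-- every vector orthogonal to `s` is a difference of two vectors of norm one orthogonal to `s` -/
theorem exists_sub_norm_one (hQ : (polarBilin Q).Nondegenerate) (hd : 7 ≤ finrank F V) {s : V}
    (hs0 : s ≠ 0) (hs : Q s = 0) {v : V} (hv : polar Q s v = 0) :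
    ∃ a₀, Q a₀ = 1 ∧ polar Q s a₀ = 0 ∧ Q (a₀ + v) = 1 := by
  obtain ⟨u₀, h1, h2⟩ : ∃ u₀, polar Q s u₀ = 0 ∧ polar Q v u₀ = - Q v := by
    by_cases hdep : ∃ c : F, v = c • s
    · obtain ⟨c, rfl⟩ := hdep
      exact ⟨0, by simp, by simp [QuadraticMap.map_smul, hs]⟩
    · push Not at hdep
      exact exists_dual_pair Q hQ hs0 hdep 0 (- Q v)
  obtain ⟨a₀, f, h3, h4, h5, -⟩ := exists_fix_norm2 Q hQ hd s v u₀ 1
  refine ⟨a₀, h3, by rw [h4, h1], ?_⟩
  rw [Q_add_eq, h3, polar_comm, h5, h2]; ring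

variable (N : Subgroup (OG Q))

/-- from an element of `N` fixing a nonzero singular vector to an element fixing a subspace of
codimension two -/
theorem exists_fix_codim_two (hQ : (polarBilin Q).Nondegenerate) (hd : 7 ≤ finrank F V)
    (hN : ∀ k ∈ commutator (OG Q), ∀ n ∈ N, k * n * k⁻¹ ∈ N) {g : OG Q} (hg : g ∈ N) (hne : g ≠ 1)
    {s : V} (hs0 : s ≠ 0) (hs : Q s = 0) (hgs : g.1 s = s) :
    ∃ h ∈ N, h ≠ 1 ∧ ∃ T : Submodule F V, (∀ x ∈ T, h.1 x = x) ∧
      finrank F V ≤ finrank F T + 2 := by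
  obtain ⟨s', hs'⟩ := exists_polar_eq_one Q hQ hs0
  by_cases hcase : ∃ a, Q a = 1 ∧ polar Q s a = 0 ∧ ∀ c : F, g.1 a - a ≠ c • s
  · obtain ⟨a, ha, hsa, hd'⟩ := hcase
    have has : polar Q a s = 0 := by rw [polar_comm]; exact hsa
    have hQas : Q (a + s) = 1 := by rw [Q_add_eq, ha, hs, has]; ring
    obtain ⟨a₁, ha₁⟩ : ∃ a₁, a₁ = g.1 a := ⟨_, rfl⟩
    have hQa₁ : Q a₁ = 1 := by rw [ha₁, OG_apply, ha]
    have ha₁s : polar Q a₁ s = 0 := by
      rw [ha₁, ← hgs, OG_polar, has]
    have hE : refl Q a * refl Q (a + s) ∈ commutator (OG Q) :=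
      refl_mul_refl_mem_commutator_of_eq Q hQ _ _ (by rw [ha]; exact one_ne_zero)
        (by rw [ha, hQas])
    have h5 := N.mul_mem hg (hN _ hE _ (N.inv_mem hg))
    have e1 : g * ((refl Q a * refl Q (a + s)) * g⁻¹ * (refl Q a * refl Q (a + s))⁻¹) =
        (g * (refl Q a * refl Q (a + s)) * g⁻¹) * (refl Q a * refl Q (a + s))⁻¹ := by group
    rw [e1, conj_refl_mul_refl, map_add, hgs, ← ha₁] at h5
    refine ⟨_, h5, ?_, ⊤ ⊓ LinearMap.ker (polarBilin Q s) ⊓ LinearMap.ker (polarBilin Q (a₁ - a)),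
      ?_, ?_⟩
    · intro h1
      rw [mul_inv_eq_one] at h1
      have h2 := congrArg (fun k : OG Q => k.1 s') h1
      simp only [Subgroup.coe_mul, LinearEquiv.mul_apply, refl_coe_apply] at h2
      rw [siegel_apply Q hQa₁ hs ha₁s, siegel_apply Q ha hs has, hs'] at h2
      apply hd' (polar Q a₁ s' - polar Q a s')
      rw [← ha₁]
      have h3 : a₁ - a - (polar Q a₁ s' - polar Q a s') • s = 0 := by
        have h4 := sub_eq_zero.2 h2
        rw [← h4]
        module
      exact sub_eq_zero.1 h3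
    · intro v hv
      simp only [Submodule.mem_inf, Submodule.mem_top, true_and, LinearMap.mem_ker,
        polarBilin_apply_apply] at hv
      obtain ⟨hv1, hv2⟩ := hv
      rw [mul_inv_rev, refl_inv, refl_inv]
      simp only [Subgroup.coe_mul, LinearEquiv.mul_apply, refl_coe_apply]
      have e2 : reflLin Q (a + s) (reflLin Q a v) = v + polar Q a v • s := by
        have := reflLin_reflLin_add Q (a + s) (-s) v (by rw [hQas]; exact one_ne_zero)
          (by rw [QuadraticMap.map_neg, hs]) (by rw [polar_neg_left, hv1, neg_zero])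
          (by rw [add_neg_cancel_right, ha]; exact one_ne_zero)
        rw [add_neg_cancel_right, ha, polar_add_left, hv1] at this
        rw [this]
        simp
      rw [e2, siegel_apply Q hQa₁ hs ha₁s]
      have e3 : polar Q s (v + polar Q a v • s) = 0 := by
        rw [polar_add_right, polar_smul_right, hv1, polar_self, hs]; simp
      have e4 : polar Q a₁ (v + polar Q a v • s) = polar Q a v := by
        rw [polar_add_right, polar_smul_right, ha₁s]
        rw [polar_sub_left] at hv2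
        simp only [smul_eq_mul, mul_zero, add_zero]
        linear_combination hv2
      rw [e3, e4]
      module
    · have h1 := finrank_le_inf_ker_add_one (⊤ : Submodule F V) (polarBilin Q s)
      have h2 := finrank_le_inf_ker_add_one (⊤ ⊓ LinearMap.ker (polarBilin Q s))
        (polarBilin Q (a₁ - a))
      rw [finrank_top] at h1
      omega
  · push Not at hcase
    have hall : ∀ v, polar Q s v = 0 → ∃ c : F, g.1 v - v = c • s := by
      intro v hv
      obtain ⟨a₀, h1, h2, h3⟩ := exists_sub_norm_one Q hQ hd hs0 hs hv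
      obtain ⟨c₁, hc₁⟩ := hcase a₀ h1 h2
      obtain ⟨c₂, hc₂⟩ := hcase (a₀ + v) h3 (by rw [polar_add_right, h2, hv, add_zero])
      refine ⟨c₂ - c₁, ?_⟩
      rw [sub_smul, ← hc₁, ← hc₂, map_add]
      abel
    refine ⟨g, hg, hne, ⊤ ⊓ LinearMap.ker (polarBilin Q s) ⊓
      LinearMap.ker ((polarBilin Q s').comp ((g.1 : V →ₗ[F] V) - LinearMap.id)), ?_, ?_⟩
    · intro v hv
      simp only [Submodule.mem_inf, Submodule.mem_top, true_and, LinearMap.mem_ker,
        polarBilin_apply_apply, LinearMap.comp_apply, LinearMap.sub_apply, LinearMap.id_apply,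
        LinearEquiv.coe_coe] at hv
      obtain ⟨hv1, hv2⟩ := hv
      obtain ⟨c, hc⟩ := hall v hv1
      rw [hc, polar_smul_right, polar_comm, hs', smul_eq_mul, mul_one] at hv2
      rw [hv2, zero_smul] at hc
      exact sub_eq_zero.1 hc
    · have h1 := finrank_le_inf_ker_add_one (⊤ : Submodule F V) (polarBilin Q s)
      have h2 := finrank_le_inf_ker_add_one (⊤ ⊓ LinearMap.ker (polarBilin Q s))
        ((polarBilin Q s').comp ((g.1 : V →ₗ[F] V) - LinearMap.id))
      rw [finrank_top] at h1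
      omega

/-- **Main theorem**: a subgroup normalised by `Ω` which contains an element not commuting with
`Ω` contains `Ω` (dimension at least seven, finite field). -/
theorem commutator_le_of_normalized (hQ : (polarBilin Q).Nondegenerate) (hd : 7 ≤ finrank F V)
    (hN : ∀ k ∈ commutator (OG Q), ∀ n ∈ N, k * n * k⁻¹ ∈ N) {g : OG Q} (hg : g ∈ N)
    (hnc : ∃ k ∈ commutator (OG Q), g * k ≠ k * g) : commutator (OG Q) ≤ N := by
  -- a reflection pair not commuting with `g`
  obtain ⟨x, y, hx, hy, hxy⟩ : ∃ x y, Q x = 1 ∧ Q y = 1 ∧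
      g * (refl Q x * refl Q y) ≠ (refl Q x * refl Q y) * g := by
    by_contra hcon
    push Not at hcon
    obtain ⟨k, hk, hgk⟩ := hnc
    apply hgk
    have h1 : pairSub Q (1 : F) ≤ Subgroup.centralizer {g} := by
      unfold pairSub
      rw [Subgroup.closure_le]
      rintro _ ⟨x, y, hx, hy, rfl⟩
      rw [SetLike.mem_coe, Subgroup.mem_centralizer_iff]
      intro h hh
      rw [Set.mem_singleton_iff.1 hh]
      exact hcon x y hx hy
    have h2 := h1 (commutator_le_pairSub Q hQ (by omega) one_ne_zero hk)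
    rw [Subgroup.mem_centralizer_iff] at h2
    exact h2 g rfl
  have hρ : refl Q x * refl Q y ∈ commutator (OG Q) :=
    refl_mul_refl_mem_commutator_of_eq Q hQ x y (by rw [hx]; exact one_ne_zero) (by rw [hx, hy])
  have h5 := N.mul_mem hg (hN _ hρ _ (N.inv_mem hg))
  have e1 : g * ((refl Q x * refl Q y) * g⁻¹ * (refl Q x * refl Q y)⁻¹) =
      (g * (refl Q x * refl Q y) * g⁻¹) * (refl Q x * refl Q y)⁻¹ := by group
  rw [e1] at h5
  have hne : (g * (refl Q x * refl Q y) * g⁻¹) * (refl Q x * refl Q y)⁻¹ ≠ 1 := by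
    intro h1
    rw [mul_inv_eq_one, mul_inv_eq_iff_eq_mul] at h1
    exact hxy h1
  have e2 : (g * (refl Q x * refl Q y) * g⁻¹) * (refl Q x * refl Q y)⁻¹ =
      reflProd Q [g.1 x, g.1 y, y, x] := by
    rw [conj_refl_mul_refl, mul_inv_rev, refl_inv, refl_inv]
    simp [mul_assoc]
  rw [e2] at h5 hne
  -- a singular vector fixed by `g₁`
  have t1 := finrank_le_inf_ker_add_one (⊤ : Submodule F V) (polarBilin Q (g.1 x))
  have t2 := finrank_le_inf_ker_add_one (⊤ ⊓ LinearMap.ker (polarBilin Q (g.1 x)))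
    (polarBilin Q (g.1 y))
  have t3 := finrank_le_inf_ker_add_one (⊤ ⊓ LinearMap.ker (polarBilin Q (g.1 x)) ⊓
    LinearMap.ker (polarBilin Q (g.1 y))) (polarBilin Q y)
  have t4 := finrank_le_inf_ker_add_one (⊤ ⊓ LinearMap.ker (polarBilin Q (g.1 x)) ⊓
    LinearMap.ker (polarBilin Q (g.1 y)) ⊓ LinearMap.ker (polarBilin Q y)) (polarBilin Q x)
  rw [finrank_top] at t1
  have hq : 1 < Fintype.card F := Fintype.one_lt_card
  obtain ⟨s, hsT, hs0, hs⟩ := Cfsg.Agent.Lib.Helper50.Quad.exists_singular (Q := Q)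
    (⊤ ⊓ LinearMap.ker (polarBilin Q (g.1 x)) ⊓ LinearMap.ker (polarBilin Q (g.1 y)) ⊓
      LinearMap.ker (polarBilin Q y) ⊓ LinearMap.ker (polarBilin Q x)) (by
      rw [Module.natCard_eq_pow_finrank (K := F), Nat.card_eq_fintype_card]
      exact Nat.pow_lt_pow_right hq (by omega))
  simp only [Submodule.mem_inf, Submodule.mem_top, true_and, LinearMap.mem_ker,
    polarBilin_apply_apply] at hsT
  have hfix : (reflProd Q [g.1 x, g.1 y, y, x]).1 s = s := by
    apply reflProd_apply_of_ortho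
    intro v hv
    simp only [List.mem_cons, List.not_mem_nil, or_false] at hv
    rcases hv with rfl | rfl | rfl | rfl
    · exact hsT.1.1.1
    · exact hsT.1.1.2
    · exact hsT.1.2
    · exact hsT.2
  obtain ⟨h, hhN, hh1, T, hT, hTd⟩ := exists_fix_codim_two Q N hQ hd hN h5 hne hs0 hs hfix
  obtain ⟨a, b, ha, hb, hab, hmem⟩ := exists_pair_mem_of_fix Q N hQ hd hN hhN hh1 T hT (by omega)
  exact commutator_le_of_pair_mem Q N hQ hd hN one_ne_zero ha hb hab hmem

end

end Cfsg.Agent.Lib.Helper49
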