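import Mathlib
import Cfsg.Agent.Lib.Helper49.NormalOmega2
import Cfsg.Agent.Lib.Helper49.Transfer

set_option autoImplicit false

namespace Cfsg.Agent.Lib.Helper49

open QuadraticMap Module

section Grp

variable {Γ : Type*} [Group Γ]

/-- a nonabelian group all of whose normal subgroups are central or everything is simple modulo
its centre -/
theorem isSimpleGroup_quotient_center (hna : ∃ a b : Γ, a * b ≠ b * a)
    (h : ∀ N : Subgroup Γ, N.Normal → N ≤ Subgroup.center Γ ∨ N = ⊤) :
    IsSimpleGroup (Γ ⧸ Subgroup.center Γ) := by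
  have hnt : Nontrivial (Γ ⧸ Subgroup.center Γ) := by
    obtain ⟨a, b, hab⟩ := hna
    refine ⟨⟨(a : Γ ⧸ Subgroup.center Γ), 1, ?_⟩⟩
    intro h1
    rw [QuotientGroup.eq_one_iff, Subgroup.mem_center_iff] at h1
    exact hab (h1 b).symm
  refine { exists_pair_ne := hnt.exists_pair_ne, eq_bot_or_eq_top_of_normal := ?_ }
  intro H hH
  rcases h (H.comap (QuotientGroup.mk' (Subgroup.center Γ))) inferInstance with h1 | h1
  · left
    rw [eq_bot_iff]
    intro x hx
    obtain ⟨y, rfl⟩ := QuotientGroup.mk'_surjective _ x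
    rw [Subgroup.mem_bot]
    exact (QuotientGroup.eq_one_iff y).2 (h1 hx)
  · right
    rw [eq_top_iff]
    intro x _
    obtain ⟨y, rfl⟩ := QuotientGroup.mk'_surjective _ x
    have : y ∈ H.comap (QuotientGroup.mk' (Subgroup.center Γ)) := by rw [h1]; trivial
    exact this

end Grp

section

variable {F V : Type*} [Field F] [Fintype F] [AddCommGroup V] [Module F V] [FiniteDimensional F V]
  (Q : QuadraticForm F V)

/-- `Ω` is not abelian -/
theorem exists_noncommuting (hQ : (polarBilin Q).Nondegenerate) (hd : 7 ≤ finrank F V) :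
    ∃ a ∈ commutator (OG Q), ∃ b ∈ commutator (OG Q), a * b ≠ b * a := by
  obtain ⟨x, -, hx, -⟩ := exists_fix_norm2 Q hQ hd 0 0 0 1
  have hx0 : x ≠ 0 := ne_zero_of_Q_ne_zero' Q (by rw [hx]; exact one_ne_zero)
  obtain ⟨u₀, hu₀⟩ := exists_polar_eq_one Q hQ hx0
  obtain ⟨y, f, hy, hxy, -, hxf, -, hyf⟩ := exists_fix_norm2 Q hQ hd x 0 u₀ 1
  rw [hu₀] at hxy
  have hy0 : y ≠ 0 := ne_zero_of_Q_ne_zero' Q (by rw [hy]; exact one_ne_zero)
  obtain ⟨z, -, hz, hxz, hyz, -⟩ := exists_fix_norm2 Q hQ hd x y 0 1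
  simp only [polar_zero_right] at hxz hyz
  obtain ⟨v, hyv, hxv⟩ := exists_dual_pair Q hQ hy0 (x := y) (z := x) (by
    intro c hc
    have h1 : polar Q x f = c * polar Q y f := by rw [hc, polar_smul_left, smul_eq_mul]
    rw [hxf, hyf, mul_one] at h1
    rw [← h1, zero_smul] at hc
    exact hx0 hc) 0 1
  have n1 : (1 : F) ≠ 0 := one_ne_zero
  refine ⟨refl Q x * refl Q z, refl_mul_refl_mem_commutator_of_eq Q hQ x z (by rw [hx]; exact n1)
    (by rw [hx, hz]), refl Q x * refl Q y, refl_mul_refl_mem_commutator_of_eq Q hQ x y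
    (by rw [hx]; exact n1) (by rw [hx, hy]), ?_⟩
  intro hcomm
  have h1 : (refl Q x * refl Q z) * (refl Q x * refl Q y) * (refl Q x * refl Q z)⁻¹ =
      refl Q x * refl Q y := by
    rw [hcomm]; group
  rw [conj_refl_mul_refl] at h1
  have e1 : (refl Q x * refl Q z).1 x = -x := by
    simp only [Subgroup.coe_mul, LinearEquiv.mul_apply, refl_coe_apply]
    rw [reflLin_of_polar_eq_zero Q z x (by rw [polar_comm]; exact hxz),
      reflLin_self Q x (by rw [hx]; exact n1)]
  have e2 : (refl Q x * refl Q z).1 y = y - x := by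
    simp only [Subgroup.coe_mul, LinearEquiv.mul_apply, refl_coe_apply]
    rw [reflLin_of_polar_eq_zero Q z y (by rw [polar_comm]; exact hyz), reflLin_apply, hx, hxy]
    simp
  have e3 : refl Q (-x) = refl Q x := by
    have : -x = (-1 : F) • x := by simp
    rw [this, refl_smul Q x (neg_ne_zero.2 one_ne_zero)]
  rw [e1, e2, e3] at h1
  have h2 := mul_left_cancel h1
  have h3 := congrArg (fun k : OG Q => k.1 v) h2
  simp only [refl_coe_apply] at h3
  rw [reflLin_of_polar_eq_zero Q y v hyv, reflLin_apply, polar_sub_left, hyv, hxv] at h3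
  have hQyx : Q (y - x) = 1 := by
    have := Q_sub_smul Q y x 1
    simp only [one_smul, one_pow, one_mul] at this
    rw [this, hx, hy, hxy]; ring
  rw [hQyx] at h3
  have h4 : y - x = 0 := by
    have : v - ((1 : F)⁻¹ * (0 - 1)) • (y - x) - v = 0 := by rw [h3]; simp
    have h5 : v - ((1 : F)⁻¹ * (0 - 1)) • (y - x) - v = y - x := by
      simp
    rw [h5] at this
    exact this
  rw [h4] at hQyx
  simp at hQyx

end

section Mat

variable {ι : Type} [Fintype ι] [DecidableEq ι] {F : Type*} [Field F] [Fintype F]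
variable (Q : QuadraticForm F (ι → F))

/-- `PΩ` of a nondegenerate quadratic form in dimension at least `7` over a finite field is
simple -/
theorem isSimpleGroup_POmega (hQ : (polarBilin Q).Nondegenerate) (hd : 7 ≤ Fintype.card ι) :
    IsSimpleGroup (Cfsg.POmega F ⇑Q) := by
  have hd' : 7 ≤ finrank F (ι → F) := by rwa [Module.finrank_fintype_fun_eq_card]
  apply isSimpleGroup_quotient_center
  · obtain ⟨a, ha, b, hb, hab⟩ := exists_noncommuting Q hQ hd'
    refine ⟨⟨(isoEquiv Q).symm a, (mem_Omega_iff Q _).2 (by simpa using ha)⟩,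
      ⟨(isoEquiv Q).symm b, (mem_Omega_iff Q _).2 (by simpa using hb)⟩, ?_⟩
    intro h
    apply hab
    have h1 := congrArg (fun k : ↥(Cfsg.Omega F ⇑Q) => isoEquiv Q k.1) h
    simpa using h1
  · intro N hN
    by_cases hc : N ≤ Subgroup.center ↥(Cfsg.Omega F ⇑Q)
    · exact Or.inl hc
    · right
      obtain ⟨n, hn, hnc⟩ := SetLike.not_le_iff_exists.1 hc
      rw [Subgroup.mem_center_iff] at hnc
      push Not at hnc
      obtain ⟨k, hk⟩ := hnc
      let N' : Subgroup (OG Q) :=
        (N.map (Cfsg.Omega F ⇑Q).subtype).map (isoEquiv Q).toMonoidHom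
      have memN' : ∀ x : ↥(Cfsg.Omega F ⇑Q), x ∈ N → isoEquiv Q x.1 ∈ N' := by
        intro x hx
        exact ⟨x.1, ⟨x, hx, rfl⟩, rfl⟩
      have hle : commutator (OG Q) ≤ N' := by
        apply commutator_le_of_normalized Q N' hQ hd' _ (memN' n hn)
        · refine ⟨isoEquiv Q k.1, (mem_Omega_iff Q _).1 k.2, ?_⟩
          intro h
          apply hk
          apply Subtype.ext
          apply (isoEquiv Q).injective
          simpa using h.symm
        · rintro c hc _ ⟨_, ⟨x, hx, rfl⟩, rfl⟩
          have hc' : (isoEquiv Q).symm c ∈ Cfsg.Omega F ⇑Q :=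
            (mem_Omega_iff Q _).2 (by simpa using hc)
          have := memN' _ (hN.conj_mem x hx ⟨_, hc'⟩)
          simpa using this
      rw [eq_top_iff]
      intro x _
      obtain ⟨_, ⟨y, hy, rfl⟩, hxy⟩ := hle ((mem_Omega_iff Q _).1 x.2)
      have : y = x := by
        apply Subtype.ext
        apply (isoEquiv Q).injective
        exact hxy
      rw [← this]
      exact hy

end Mat

end Cfsg.Agent.Lib.Helper49
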