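import Cfsg.Agent.Lib.Helper49.GamO6
import Cfsg.Agent.Lib.Helper49.SimpleOmega

set_option autoImplicit false
set_option linter.unusedSimpArgs false
set_option linter.unusedSectionVars false

/-! The map `ΓO(Q) → Out(PΩ(Q))`, its kernel, and `|Out|`. -/

namespace Cfsg.Agent.Lib.Helper49

open QuadraticMap Module Matrix
open scoped MatrixGroups

variable {ι : Type} [Fintype ι] [DecidableEq ι] {F : Type*} [Field F]

section fn

variable (Q : (ι → F) → F)

/-- isometries as semisimilarity pairs -/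
def isoIncl : ↥(Cfsg.isometryGroup F Q) →* ↥(GamO Q) := (goIncl Q).comp (oIncl Q)

theorem isoIncl_left (g : ↥(Cfsg.isometryGroup F Q)) : (isoIncl Q g).1.left = g.1 := rfl

theorem isoIncl_right (g : ↥(Cfsg.isometryGroup F Q)) : (isoIncl Q g).1.right = 1 := rfl

theorem isoIncl_injective : Function.Injective (isoIncl Q) :=
  (goIncl_injective Q).comp (oIncl_injective Q)

theorem cGam_isoIncl (ω : ↥(Cfsg.Omega F Q)) :
    cGam Q (isoIncl Q ω.1) = MulAut.conj (QuotientGroup.mk ω : Cfsg.POmega F Q) := by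
  symm
  apply eq_cGam_of_induced
  intro s s' h
  rw [MulAut.conj_apply, ← QuotientGroup.mk_mul, ← QuotientGroup.mk_inv, ← QuotientGroup.mk_mul]
  congr 1
  apply Subtype.ext
  apply Subtype.ext
  apply Units.ext
  rw [h, isoIncl_left, isoIncl_right]
  simp

/-- the map to the outer automorphism group -/
def outHom : ↥(GamO Q) →* Cfsg.Out (Cfsg.POmega F Q) :=
  (QuotientGroup.mk' (Cfsg.Inn (Cfsg.POmega F Q))).comp (cGam Q)

theorem outHom_surjective (htop : Cfsg.gammaPOmega F Q = ⊤) : Function.Surjective (outHom Q) := by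
  have hs : Function.Surjective (cGam Q) := by
    rw [← MonoidHom.range_eq_top, ← gammaPOmega_eq_range, htop]
  exact (QuotientGroup.mk'_surjective _).comp hs

theorem outHom_eq_one_iff (x : ↥(GamO Q)) :
    outHom Q x = 1 ↔ ∃ ω : ↥(Cfsg.Omega F Q), cGam Q x = cGam Q (isoIncl Q ω.1) := by
  unfold outHom
  rw [MonoidHom.comp_apply, QuotientGroup.mk'_apply, QuotientGroup.eq_one_iff]
  constructor
  · rintro ⟨t, ht⟩
    induction t using QuotientGroup.induction_on with
    | H ω => exact ⟨ω, by rw [cGam_isoIncl, ht]⟩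
  · rintro ⟨ω, hω⟩
    exact ⟨QuotientGroup.mk ω, by rw [hω, cGam_isoIncl]⟩

theorem outHom_isoIncl (ω : ↥(Cfsg.isometryGroup F Q)) (hω : ω ∈ Cfsg.Omega F Q) :
    outHom Q (isoIncl Q ω) = 1 := (outHom_eq_one_iff Q _).2 ⟨⟨ω, hω⟩, rfl⟩

end fn

section qf

variable (Q : QuadraticForm F (ι → F))

theorem outHom_scalHom (c : Fˣ) : outHom ⇑Q (scalHom Q c) = 1 := by
  unfold outHom
  rw [MonoidHom.comp_apply, cGam_scalHom, map_one]

variable [Fintype F]

theorem outHom_eq_one_iff' (hQ : (polarBilin Q).Nondegenerate) (hd : 7 ≤ Fintype.card ι)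
    (x : ↥(GamO ⇑Q)) :
    outHom ⇑Q x = 1 ↔ ∃ (c : Fˣ) (ω : ↥(Cfsg.Omega F ⇑Q)), x = scalHom Q c * isoIncl ⇑Q ω.1 := by
  rw [outHom_eq_one_iff]
  constructor
  · rintro ⟨ω, hω⟩
    have : x * (isoIncl ⇑Q ω.1)⁻¹ ∈ (cGam ⇑Q).ker := by
      rw [MonoidHom.mem_ker, map_mul, map_inv, hω, mul_inv_cancel]
    rw [← range_scalHom Q hQ hd] at this
    obtain ⟨c, hc⟩ := this
    exact ⟨c, ω, by rw [hc]; group⟩
  · rintro ⟨c, ω, rfl⟩
    exact ⟨ω, by rw [map_mul, cGam_scalHom, one_mul]⟩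

theorem center_POmega (hQ : (polarBilin Q).Nondegenerate) (hd : 7 ≤ Fintype.card ι) :
    Subgroup.center (Cfsg.POmega F ⇑Q) = ⊥ := by
  have hs := isSimpleGroup_POmega Q hQ hd
  have hd' : 7 ≤ finrank F (ι → F) := by rwa [Module.finrank_fintype_fun_eq_card]
  rcases (Subgroup.center (Cfsg.POmega F ⇑Q)).normal_of_characteristic.eq_bot_or_eq_top with h | h
  · exact h
  · exfalso
    obtain ⟨a, ha, b, hb, hab⟩ := exists_noncommuting Q hQ hd'
    have hcyc : IsCyclic (Cfsg.POmega F ⇑Q) := by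
      let _ : CommGroup (Cfsg.POmega F ⇑Q) := Group.commGroupOfCenterEqTop h
      exact IsSimpleGroup.isCyclic
    have hc := commutative_of_cyclic_center_quotient
      (QuotientGroup.mk' (Subgroup.center ↥(Cfsg.Omega F ⇑Q)))
      (by rw [QuotientGroup.ker_mk'])
      ⟨(isoEquiv Q).symm a, (mem_Omega_iff Q _).2 (by simpa using ha)⟩
      ⟨(isoEquiv Q).symm b, (mem_Omega_iff Q _).2 (by simpa using hb)⟩
    apply hab
    have h1 := congrArg (fun k : ↥(Cfsg.Omega F ⇑Q) => isoEquiv Q k.1) hc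
    simpa using h1

theorem card_Inn (hQ : (polarBilin Q).Nondegenerate) (hd : 7 ≤ Fintype.card ι) :
    Nat.card ↥(Cfsg.Inn (Cfsg.POmega F ⇑Q)) = Nat.card (Cfsg.POmega F ⇑Q) := by
  have hinj : Function.Injective (MulAut.conj : Cfsg.POmega F ⇑Q →* MulAut (Cfsg.POmega F ⇑Q)) := by
    rw [← MonoidHom.ker_eq_bot_iff, eq_bot_iff, ← center_POmega Q hQ hd]
    intro t ht
    rw [Subgroup.mem_center_iff]
    intro s
    have h1 := congrArg (fun k : MulAut (Cfsg.POmega F ⇑Q) => k s) (MonoidHom.mem_ker.1 ht)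
    simp only [MulAut.conj_apply, MulAut.one_apply] at h1
    rw [mul_inv_eq_iff_eq_mul] at h1
    exact h1.symm
  exact (Nat.card_congr (MonoidHom.ofInjective hinj).toEquiv).symm

theorem card_Out_mul (hQ : (polarBilin Q).Nondegenerate) (hd : 7 ≤ Fintype.card ι) :
    Nat.card (Cfsg.Out (Cfsg.POmega F ⇑Q)) * Nat.card (Cfsg.POmega F ⇑Q) =
      Nat.card (MulAut (Cfsg.POmega F ⇑Q)) := by
  rw [← card_Inn Q hQ hd]
  exact (Subgroup.card_eq_card_quotient_mul_card_subgroup _).symm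

end qf

end Cfsg.Agent.Lib.Helper49
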